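import Mathlib

set_option autoImplicit false

namespace Cfsg.Agent.Lib.Helper1.A4Sq

open Equiv

/-- the alternating group of degree four -/
abbrev A : Type := ↥(alternatingGroup (Fin 4))

/-- its square -/
abbrev G : Type := A × A

/-- a diagonal involution -/
def cB (b : G) : Bool := decide (b ^ 2 = 1) && (decide (b.1 ≠ 1) && decide (b.2 ≠ 1))

/-- a second diagonal involution, with diagonal product -/
def cB' (b b' : G) : Bool := cB b' && (decide (b'.1 ≠ b.1) && decide (b'.2 ≠ b.2))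

/-- a diagonal element of order three -/
def cR (r : G) : Bool := decide (r ^ 3 = 1) && (decide (r.1 ≠ 1) && decide (r.2 ≠ 1))

/-- conjugation by `r` keeps the four-group of `b`, `b'` -/
def nbB (r b b' : G) : Bool :=
  (decide (r * b * r⁻¹ = b) || (decide (r * b * r⁻¹ = b') || decide (r * b * r⁻¹ = b * b'))) &&
  (decide (r * b' * r⁻¹ = b) || (decide (r * b' * r⁻¹ = b') || decide (r * b' * r⁻¹ = b * b')))

set_option maxRecDepth 100000 in
theorem c2 : ∀ b : G, cB b = true → ∀ b' : G, cB' b b' = true →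
    ∀ r : G, cR r = true → (nbB r b b' || nbB (r.1, r.2⁻¹) b b') = true := by
  decide +kernel

theorem sq_of_pow4 : ∀ u : A, u ^ 4 = 1 → u ^ 2 = 1 := by decide +kernel

theorem s0_mem : swap (0 : Fin 4) 1 * swap 1 2 ∈ alternatingGroup (Fin 4) := by
  rw [Equiv.Perm.mem_alternatingGroup, map_mul, Equiv.Perm.sign_swap (by decide),
    Equiv.Perm.sign_swap (by decide)]
  rfl

/-- an element of order three -/
def s0 : A := ⟨swap 0 1 * swap 1 2, s0_mem⟩

theorem s0_props : s0 ≠ 1 ∧ s0 ^ 3 = 1 := by decide +kernel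

/-- a subgroup of order nine -/
def H0 : Subgroup G := (Subgroup.zpowers s0).prod (Subgroup.zpowers s0)

theorem card_H0 : Nat.card H0 = 3 ^ 2 := by
  unfold H0
  rw [Nat.card_congr (Subgroup.prodEquiv _ _).toEquiv, Nat.card_prod, Nat.card_zpowers,
    orderOf_eq_prime s0_props.2 s0_props.1]
  norm_num

theorem main (X : Sylow 2 G) (Q : Sylow 3 G) (B : Subgroup G) (hBX : B ≤ (X : Subgroup G))
    (hB4 : Nat.card ↥B = 4) :
    B ⊓ ((X : Subgroup G) ⊓ Subgroup.prod ⊤ ⊥) ≠ ⊥ ∨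
      B ⊓ ((X : Subgroup G) ⊓ Subgroup.prod ⊥ ⊤) ≠ ⊥ ∨
      ∃ R : Subgroup G, R ≤ (Q : Subgroup G) ∧ Nat.card ↥R = 3 ∧
        R ≠ (Q : Subgroup G) ⊓ Subgroup.prod ⊤ ⊥ ∧ R ≠ (Q : Subgroup G) ⊓ Subgroup.prod ⊥ ⊤ ∧
        R ≤ Subgroup.normalizer (B : Set G) := by
  by_cases h1 : B ⊓ ((X : Subgroup G) ⊓ Subgroup.prod ⊤ ⊥) = ⊥
  swap
  · exact Or.inl h1
  by_cases h2 : B ⊓ ((X : Subgroup G) ⊓ Subgroup.prod ⊥ ⊤) = ⊥
  swap
  · exact Or.inr (Or.inl h2)
  right; right
  have ax1 : ∀ x ∈ B, x.2 = 1 → x = 1 := by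
    intro x hx hx2
    have hm : x ∈ B ⊓ ((X : Subgroup G) ⊓ Subgroup.prod ⊤ ⊥) :=
      ⟨hx, hBX hx, Subgroup.mem_prod.mpr ⟨Subgroup.mem_top _, Subgroup.mem_bot.mpr hx2⟩⟩
    rw [h1] at hm
    exact Subgroup.mem_bot.mp hm
  have ax2 : ∀ x ∈ B, x.1 = 1 → x = 1 := by
    intro x hx hx2
    have hm : x ∈ B ⊓ ((X : Subgroup G) ⊓ Subgroup.prod ⊥ ⊤) :=
      ⟨hx, hBX hx, Subgroup.mem_prod.mpr ⟨Subgroup.mem_bot.mpr hx2, Subgroup.mem_top _⟩⟩
    rw [h2] at hm
    exact Subgroup.mem_bot.mp hm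
  have sqB : ∀ x ∈ B, x ^ 2 = 1 := by
    intro x hx
    have h4 : x ^ 4 = 1 := by
      have h5 := pow_card_eq_one' (G := B) (x := ⟨x, hx⟩)
      rw [hB4] at h5
      exact congrArg Subtype.val h5
    exact Prod.ext (sq_of_pow4 x.1 (congrArg Prod.fst h4)) (sq_of_pow4 x.2 (congrArg Prod.snd h4))
  obtain ⟨b, b', hb, hb', hb1, hb'1, hbb'⟩ :
      ∃ b b' : G, b ∈ B ∧ b' ∈ B ∧ b ≠ 1 ∧ b' ≠ 1 ∧ b ≠ b' := by
    have e : B ≃ Fin 4 := by
      have e0 := Finite.equivFin B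
      rw [hB4] at e0
      exact e0
    have inj := e.symm.injective
    by_cases c0 : ((e.symm 0 : B) : G) = 1
    · refine ⟨e.symm 1, e.symm 2, (e.symm 1).2, (e.symm 2).2, ?_, ?_, ?_⟩
      · intro h
        have h3 : e.symm 1 = e.symm 0 := Subtype.ext (h.trans c0.symm)
        exact absurd (inj h3) (by decide)
      · intro h
        have h3 : e.symm 2 = e.symm 0 := Subtype.ext (h.trans c0.symm)
        exact absurd (inj h3) (by decide)
      · intro h
        exact absurd (inj (Subtype.ext h)) (by decide)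
    · by_cases c1 : ((e.symm 1 : B) : G) = 1
      · refine ⟨e.symm 0, e.symm 2, (e.symm 0).2, (e.symm 2).2, c0, ?_, ?_⟩
        · intro h
          have h3 : e.symm 2 = e.symm 1 := Subtype.ext (h.trans c1.symm)
          exact absurd (inj h3) (by decide)
        · intro h
          exact absurd (inj (Subtype.ext h)) (by decide)
      · exact ⟨e.symm 0, e.symm 1, (e.symm 0).2, (e.symm 1).2, c0, c1,
          fun h => absurd (inj (Subtype.ext h)) (by decide)⟩
  have hb2 := sqB b hb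
  have hb'2 := sqB b' hb'
  have hbinv : b⁻¹ = b := inv_eq_of_mul_eq_one_left (by rw [← sq]; exact hb2)
  have hb'inv : b'⁻¹ = b' := inv_eq_of_mul_eq_one_left (by rw [← sq]; exact hb'2)
  have hprod : b * b' ≠ 1 := by
    intro h
    apply hbb'
    have h3 : b = b'⁻¹ := eq_inv_of_mul_eq_one_left h
    rw [h3, hb'inv]
  have allB : ∀ x ∈ B, x = 1 ∨ x = b ∨ x = b' ∨ x = b * b' := by
    classical
    have hS : ({1, b, b', b * b'} : Finset G).card = 4 := by
      rw [Finset.card_insert_of_notMem, Finset.card_insert_of_notMem,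
        Finset.card_insert_of_notMem, Finset.card_singleton]
      · simp only [Finset.mem_singleton]
        intro h
        apply hb1
        have h3 : b * b' = 1 * b' := by rw [one_mul]; exact h.symm
        exact mul_right_cancel h3
      · simp only [Finset.mem_insert, Finset.mem_singleton]
        rintro (h | h)
        · exact hbb' h
        · apply hb'1
          have h3 : b * b' = b * 1 := by rw [mul_one]; exact h.symm
          exact mul_left_cancel h3
      · simp only [Finset.mem_insert, Finset.mem_singleton]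
        rintro (h | h | h)
        · exact hb1 h.symm
        · exact hb'1 h.symm
        · exact hprod h.symm
    have hsub : ((({1, b, b', b * b'} : Finset G)) : Set G) ⊆ (B : Set G) := by
      intro x hx
      simp only [Finset.coe_insert, Finset.coe_singleton, Set.mem_insert_iff,
        Set.mem_singleton_iff] at hx
      rcases hx with rfl | rfl | rfl | rfl
      exacts [one_mem _, hb, hb', mul_mem hb hb']
    have hcard : (B : Set G).ncard = 4 :=
      (Nat.card_coe_set_eq (B : Set G)).symm.trans hB4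
    have heq : ((({1, b, b', b * b'} : Finset G)) : Set G) = (B : Set G) := by
      apply Set.eq_of_subset_of_ncard_le hsub _ (Set.toFinite _)
      rw [Set.ncard_coe_finset, hS, hcard]
    intro x hx
    have hx' : x ∈ ((({1, b, b', b * b'} : Finset G)) : Set G) := by
      rw [heq]
      exact hx
    simpa using hx'
  haveI : Fact (Nat.Prime 3) := ⟨by norm_num⟩
  obtain ⟨Q0, hQ0⟩ := IsPGroup.exists_le_sylow (IsPGroup.of_card card_H0 : IsPGroup 3 H0)
  obtain ⟨g, hg⟩ := MulAction.exists_smul_eq G Q0 Q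
  have conjQ : ∀ x ∈ H0, g * x * g⁻¹ ∈ (Q : Subgroup G) := by
    intro x hx
    rw [← hg, Sylow.coe_subgroup_smul]
    exact Subgroup.smul_mem_pointwise_smul _ (MulAut.conj g) _ (hQ0 hx)
  have hss : ((s0, s0) : G) ∈ H0 :=
    Subgroup.mem_prod.mpr ⟨Subgroup.mem_zpowers _, Subgroup.mem_zpowers _⟩
  have hss' : ((s0, s0⁻¹) : G) ∈ H0 :=
    Subgroup.mem_prod.mpr ⟨Subgroup.mem_zpowers _, inv_mem (Subgroup.mem_zpowers _)⟩
  have h3a : ((s0, s0) : G) ^ 3 = 1 := Prod.ext s0_props.2 s0_props.2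
  have h3b : ((s0, s0⁻¹) : G) ^ 3 = 1 := by
    apply Prod.ext
    · exact s0_props.2
    · show (s0⁻¹) ^ 3 = 1
      rw [inv_pow, s0_props.2, inv_one]
  obtain ⟨r, hr⟩ : ∃ r : G, r = g * (s0, s0) * g⁻¹ := ⟨_, rfl⟩
  obtain ⟨r', hr'⟩ : ∃ r' : G, r' = g * (s0, s0⁻¹) * g⁻¹ := ⟨_, rfl⟩
  have hrQ : r ∈ (Q : Subgroup G) := by rw [hr]; exact conjQ _ hss
  have hr'Q : r' ∈ (Q : Subgroup G) := by rw [hr']; exact conjQ _ hss'
  have hr3 : r ^ 3 = 1 := by rw [hr, conj_pow, h3a, mul_one, mul_inv_cancel]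
  have hr'3 : r' ^ 3 = 1 := by rw [hr', conj_pow, h3b, mul_one, mul_inv_cancel]
  have hr1 : r.1 ≠ 1 := by
    rw [hr]
    show g.1 * s0 * g.1⁻¹ ≠ 1
    rw [Ne, conj_eq_one_iff]
    exact s0_props.1
  have hr2 : r.2 ≠ 1 := by
    rw [hr]
    show g.2 * s0 * g.2⁻¹ ≠ 1
    rw [Ne, conj_eq_one_iff]
    exact s0_props.1
  have hr'eq : r' = (r.1, r.2⁻¹) := by
    rw [hr, hr']
    apply Prod.ext
    · rfl
    · show g.2 * s0⁻¹ * g.2⁻¹ = (g.2 * s0 * g.2⁻¹)⁻¹
      group
  have hr'1 : r'.1 ≠ 1 := by rw [hr'eq]; exact hr1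
  have hr'2 : r'.2 ≠ 1 := by
    rw [hr'eq]
    show r.2⁻¹ ≠ 1
    rw [Ne, inv_eq_one]
    exact hr2
  have hcB : cB b = true := by
    unfold cB
    simp only [Bool.and_eq_true, decide_eq_true_eq]
    exact ⟨hb2, fun h => hb1 (ax2 b hb h), fun h => hb1 (ax1 b hb h)⟩
  have hcB' : cB' b b' = true := by
    unfold cB' cB
    simp only [Bool.and_eq_true, decide_eq_true_eq]
    refine ⟨⟨hb'2, fun h => hb'1 (ax2 b' hb' h), fun h => hb'1 (ax1 b' hb' h)⟩, ?_, ?_⟩
    · intro h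
      have h5 : (b * b').1 = 1 := by
        show b.1 * b'.1 = 1
        rw [h, ← sq]
        exact congrArg Prod.fst hb2
      exact hprod (ax2 _ (mul_mem hb hb') h5)
    · intro h
      have h5 : (b * b').2 = 1 := by
        show b.2 * b'.2 = 1
        rw [h, ← sq]
        exact congrArg Prod.snd hb2
      exact hprod (ax1 _ (mul_mem hb hb') h5)
  have hcR : cR r = true := by
    unfold cR
    simp only [Bool.and_eq_true, decide_eq_true_eq]
    exact ⟨hr3, hr1, hr2⟩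
  have hc := c2 b hcB b' hcB' r hcR
  rw [Bool.or_eq_true] at hc
  have norm_of : ∀ ρ : G, ρ ^ 3 = 1 → nbB ρ b b' = true →
      ρ ∈ Subgroup.normalizer (B : Set G) := by
    intro ρ hρ3 hn
    unfold nbB at hn
    simp only [Bool.and_eq_true, Bool.or_eq_true, decide_eq_true_eq] at hn
    obtain ⟨hn1, hn2⟩ := hn
    have cb : ρ * b * ρ⁻¹ ∈ B := by
      rcases hn1 with h | h | h <;> rw [h]
      exacts [hb, hb', mul_mem hb hb']
    have cb' : ρ * b' * ρ⁻¹ ∈ B := by
      rcases hn2 with h | h | h <;> rw [h]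
      exacts [hb, hb', mul_mem hb hb']
    have fwd : ∀ x ∈ B, ρ * x * ρ⁻¹ ∈ B := by
      intro x hx
      rcases allB x hx with rfl | rfl | rfl | rfl
      · rw [mul_one, mul_inv_cancel]
        exact one_mem _
      · exact cb
      · exact cb'
      · have h5 : ρ * (b * b') * ρ⁻¹ = (ρ * b * ρ⁻¹) * (ρ * b' * ρ⁻¹) := by group
        rw [h5]
        exact mul_mem cb cb'
    rw [Subgroup.mem_normalizer_iff]
    intro x
    constructor
    · exact fwd x
    · intro hx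
      have h5 := fwd _ (fwd _ hx)
      have h6 : ρ * (ρ * (ρ * x * ρ⁻¹) * ρ⁻¹) * ρ⁻¹ = (ρ * ρ * ρ) * x * (ρ * ρ * ρ)⁻¹ := by
        simp only [mul_assoc, mul_inv_rev]
      have h7 : ρ * ρ * ρ = 1 := by rw [← pow_three']; exact hρ3
      rw [h6, h7, one_mul, inv_one, mul_one] at h5
      exact h5
  have build : ∀ ρ : G, ρ ∈ (Q : Subgroup G) → ρ ^ 3 = 1 → ρ.1 ≠ 1 → ρ.2 ≠ 1 →
      ρ ∈ Subgroup.normalizer (B : Set G) →
      ∃ R : Subgroup G, R ≤ (Q : Subgroup G) ∧ Nat.card ↥R = 3 ∧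
        R ≠ (Q : Subgroup G) ⊓ Subgroup.prod ⊤ ⊥ ∧ R ≠ (Q : Subgroup G) ⊓ Subgroup.prod ⊥ ⊤ ∧
        R ≤ Subgroup.normalizer (B : Set G) := by
    intro ρ hρQ hρ3 hρ1 hρ2 hρN
    refine ⟨Subgroup.zpowers ρ, (Subgroup.zpowers_le).mpr hρQ, ?_, ?_, ?_,
      (Subgroup.zpowers_le).mpr hρN⟩
    · rw [Nat.card_zpowers]
      exact orderOf_eq_prime hρ3 (fun h => hρ1 (by rw [h]; rfl))
    · intro h
      have hm : ρ ∈ (Q : Subgroup G) ⊓ Subgroup.prod ⊤ ⊥ := by
        rw [← h]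
        exact Subgroup.mem_zpowers ρ
      exact hρ2 (Subgroup.mem_bot.mp (Subgroup.mem_prod.mp hm.2).2)
    · intro h
      have hm : ρ ∈ (Q : Subgroup G) ⊓ Subgroup.prod ⊥ ⊤ := by
        rw [← h]
        exact Subgroup.mem_zpowers ρ
      exact hρ1 (Subgroup.mem_bot.mp (Subgroup.mem_prod.mp hm.2).1)
  rcases hc with hc | hc
  · exact build r hrQ hr3 hr1 hr2 (norm_of r hr3 hc)
  · rw [← hr'eq] at hc
    exact build r' hr'Q hr'3 hr'1 hr'2 (norm_of r' hr'3 hc)

end Cfsg.Agent.Lib.Helper1.A4Sq
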