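import Mathlib

namespace Cfsg.Agent.Lib.Helper1.SLn

open Matrix Matrix.SpecialLinearGroup
open scoped commutatorElement LinearAlgebra.Projectivization

variable {F : Type*} [Field F] {ι : Type*} [Fintype ι] [DecidableEq ι]

theorem diag2n_decompose {i j : ι}
    (hij : i ≠ j) (a : F) (ha : a ≠ 0) :
    diag2n hij a ha = SpecialLinearGroup.transvection hij a *
      SpecialLinearGroup.transvection hij.symm (-a⁻¹) *
      SpecialLinearGroup.transvection hij a *
      SpecialLinearGroup.transvection hij (-1) *
      SpecialLinearGroup.transvection hij.symm 1 *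
      SpecialLinearGroup.transvection hij (-1) := by
  have hji := hij.symm
  have key : diagonal (fun k ↦ if k = i then a else if k = j then a⁻¹ else 1) =
      ((1 : Matrix ι ι F) + single i j a) * (1 + single j i (-a⁻¹)) * (1 + single i j a) *
        (1 + single i j (-1)) * (1 + single j i 1) * (1 + single i j (-1)) := by
    simp only [mul_add, add_mul, mul_one, one_mul, Matrix.single_mul_single_same]
    ext k l
    simp only [Matrix.add_apply, Matrix.single_apply, Matrix.diagonal_apply, Matrix.one_apply]
    rcases eq_or_ne i k with rfl | hki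
    · rcases eq_or_ne i l with rfl | hli
      · simp [hij, hji]
        field_simp
        ring
      · rcases eq_or_ne j l with rfl | hlj
        · simp [hij, hji]
          field_simp
          ring
        · simp [hij, hji, hli, hlj, hli.symm, hlj.symm]
    · rcases eq_or_ne j k with rfl | hkj
      · rcases eq_or_ne i l with rfl | hli
        · simp [hij, hji]
          field_simp
          ring
        · rcases eq_or_ne j l with rfl | hlj
          · simp [hij, hji]
            field_simp
            ring
          · simp [hij, hji, hli, hlj, hli.symm, hlj.symm]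
      · simp [hki, hkj, hki.symm, hkj.symm]
  apply Subtype.ext
  exact key

theorem transvection_eq_commutator
    {i j k : ι} (hij : i ≠ j) (hik : i ≠ k) (hkj : k ≠ j) (c : F) :
    (SpecialLinearGroup.transvection hij c : SpecialLinearGroup ι F) =
      ⁅SpecialLinearGroup.transvection hik c, SpecialLinearGroup.transvection hkj 1⁆ := by
  rw [commutatorElement_def, SpecialLinearGroup.transvection_inv,
    SpecialLinearGroup.transvection_inv]
  have e1 : ∀ (x y : F) (a b : ι), single a k x * single i b y = 0 := fun x y a b =>
    Matrix.single_mul_single_of_ne _ _ _ _ hik.symm _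
  have e2 : ∀ (x y : F) (a b : ι), single a j x * single i b y = 0 := fun x y a b =>
    Matrix.single_mul_single_of_ne _ _ _ _ hij.symm _
  have e3 : ∀ (x y : F) (a b : ι), single a j x * single k b y = 0 := fun x y a b =>
    Matrix.single_mul_single_of_ne _ _ _ _ hkj.symm _
  have key : (1 : Matrix ι ι F) + single i j c =
      (1 + single i k c) * (1 + single k j 1) * (1 + single i k (-c)) * (1 + single k j (-1)) := by
    simp only [mul_add, add_mul, mul_one, one_mul, Matrix.single_mul_single_same, e1, e2, e3,
      add_zero]
    simp only [mul_neg, mul_one, neg_neg, ← Matrix.single_neg]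
    abel
  apply Subtype.ext
  exact key

theorem transvection_induction [Nontrivial ι]
    (P : SpecialLinearGroup ι F → Prop)
    (htransvec : ∀ (i j : ι) (h : i ≠ j) (c : F), P (SpecialLinearGroup.transvection h c))
    (hmul : ∀ A B, P A → P B → P (A * B)) (A : SpecialLinearGroup ι F) : P A := by
  refine diagonal_transvection_induction' P _ (fun i j hij c hc ↦ ?_) htransvec hmul
  rw [diag2n_decompose hij c hc]
  refine hmul _ _ (hmul _ _ (hmul _ _ (hmul _ _ (hmul _ _ ?_ ?_) ?_) ?_) ?_) ?_
  all_goals exact htransvec _ _ _ _

theorem exists_third (h : 3 ≤ Fintype.card ι) (i j : ι) : ∃ k : ι, i ≠ k ∧ k ≠ j := by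
  by_contra hcon
  simp only [not_exists, not_and, not_not] at hcon
  have hsub : (Finset.univ : Finset ι) ⊆ {i, j} := by
    intro k _
    by_cases hk : i = k
    · simp [hk]
    · simp [hcon k hk]
  have := Finset.card_le_card hsub
  have h2 : ({i, j} : Finset ι).card ≤ 2 := Finset.card_le_two
  rw [Finset.card_univ] at this
  omega

theorem nontrivial_of_three_le (h : 3 ≤ Fintype.card ι) : Nontrivial ι :=
  Fintype.one_lt_card_iff_nontrivial.1 (by omega)

theorem commutator_SL_eq_top (h : 3 ≤ Fintype.card ι) :
    commutator (SpecialLinearGroup ι F) = ⊤ := by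
  haveI := nontrivial_of_three_le h
  refine le_antisymm le_top fun A _ => transvection_induction _ (fun i j hij c => ?_)
    (fun _ _ => mul_mem) A
  obtain ⟨k, hik, hkj⟩ := exists_third h i j
  rw [transvection_eq_commutator hij hik hkj c]
  exact Subgroup.commutator_mem_commutator (Subgroup.mem_top _) (Subgroup.mem_top _)

theorem iSup_lineStab_eq_top [Nontrivial ι] :
    (⨆ p : ℙ F (ι → F), lineStab p.submodule) = (⊤ : Subgroup (SpecialLinearGroup ι F)) := by
  refine le_antisymm le_top fun M _ => transvection_induction _ (fun i j hij c => ?_)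
    (fun _ _ => mul_mem) M
  have hmem := SL2Gen.transvection_mem_lineStab (F := F) hij c
  rw [← Projectivization.submodule_mk (K := F) _ (Pi.single_ne_zero_iff.2 one_ne_zero)] at hmem
  exact Subgroup.mem_iSup_of_mem _ hmem

theorem iSup_iwasawaT_eq_top [Nontrivial ι] :
    iSup (PSL.iwasawaT (F := F) (ι := ι)) = ⊤ := by
  have step1 : iSup (PSL.iwasawaT (F := F) (ι := ι)) =
      Subgroup.map (QuotientGroup.mk' (Subgroup.center (Matrix.SpecialLinearGroup ι F)))
        (⨆ p : ℙ F (ι → F),
          Matrix.SpecialLinearGroup.lineStab (F := F) (ι := ι) p.submodule) := by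
    rw [Subgroup.map_iSup]
  rw [step1, iSup_lineStab_eq_top]
  exact Subgroup.map_top_of_surjective _ (QuotientGroup.mk'_surjective _)

noncomputable def iwasawaPSL [Nontrivial ι] :
    MulAction.IwasawaStructure (Matrix.ProjectiveSpecialLinearGroup ι F) (ℙ F (ι → F)) where
  T := PSL.iwasawaT
  is_comm p := by
    have hSL : IsMulCommutative (lineStab (F := F) (ι := ι) p.submodule) := by
      rw [← Projectivization.mk_rep p, Projectivization.submodule_mk]
      exact lineStab_isMulCommutative_of_span p.rep p.rep_nonzero
    exact Subgroup.map_isMulCommutative _ _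
  is_conj g p := by
    obtain ⟨g_SL, rfl⟩ := QuotientGroup.mk_surjective g
    rw [Matrix.ProjectiveSpecialLinearGroup.smul_proj_mk]
    change Subgroup.map _ _ = _
    rw [PSL.smul_submodule, Matrix.SpecialLinearGroup.lineStab_smul,
      PSL.iwasawaT_map_conj]
  is_generator := iSup_iwasawaT_eq_top

theorem commutator_PSL_eq_top (h : 3 ≤ Fintype.card ι) :
    commutator (Matrix.ProjectiveSpecialLinearGroup ι F) = ⊤ := by
  have h1 : Group.IsPerfect (SpecialLinearGroup ι F) := ⟨commutator_SL_eq_top h⟩
  have h2 : Group.IsPerfect (Matrix.ProjectiveSpecialLinearGroup ι F) := inferInstance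
  exact h2.commutator_eq_top

theorem isSimpleGroup_PSL (h : 3 ≤ Fintype.card ι) :
    IsSimpleGroup (Matrix.ProjectiveSpecialLinearGroup ι F) := by
  haveI := nontrivial_of_three_le h
  exact MulAction.IwasawaStructure.isSimpleGroup (commutator_PSL_eq_top h) iwasawaPSL inferInstance

noncomputable def diagGL (i : ι) (a : F) (ha : a ≠ 0) : GL ι F :=
  ⟨diagonal (fun k => if k = i then a else 1), diagonal (fun k => if k = i then a⁻¹ else 1),
    by
      rw [diagonal_mul_diagonal, ← diagonal_one]
      congr 1
      funext k
      by_cases hk : k = i <;> simp [hk, ha],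
    by
      rw [diagonal_mul_diagonal, ← diagonal_one]
      congr 1
      funext k
      by_cases hk : k = i <;> simp [hk, ha]⟩

theorem toGL_transvection_eq_commutator {i j : ι} (hij : i ≠ j) (a : F) (ha : a ≠ 0) (c : F) :
    (SpecialLinearGroup.toGL (SpecialLinearGroup.transvection hij ((a - 1) * c)) : GL ι F) =
      ⁅diagGL i a ha, SpecialLinearGroup.toGL (SpecialLinearGroup.transvection hij c)⁆ := by
  rw [commutatorElement_def, ← map_inv, SpecialLinearGroup.transvection_inv]
  apply Units.ext
  have e1 : ∀ (x y : F), single i j x * single i j y = 0 := fun x y =>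
    Matrix.single_mul_single_of_ne _ _ _ _ hij.symm _
  have h1 : ∀ x : F, diagonal (fun k => if k = i then a else 1) * single i j x *
      diagonal (fun k => if k = i then a⁻¹ else 1) = single i j (a * x) := by
    intro x
    ext k l
    rw [Matrix.mul_diagonal, Matrix.diagonal_mul]
    simp only [single_apply]
    by_cases hk : i = k
    · by_cases hl : j = l
      · subst hk hl
        simp [hij.symm]
      · simp [hl]
    · simp [hk]
  have h2 : diagonal (fun k => if k = i then a else 1) *
      diagonal (fun k => if k = i then a⁻¹ else 1) = (1 : Matrix ι ι F) := by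
    rw [diagonal_mul_diagonal, ← diagonal_one]
    congr 1
    funext k
    by_cases hk : k = i <;> simp [hk, ha]
  have key : (1 : Matrix ι ι F) + single i j ((a - 1) * c) =
      diagonal (fun k => if k = i then a else 1) * (1 + single i j c) *
        diagonal (fun k => if k = i then a⁻¹ else 1) * (1 + single i j (-c)) := by
    rw [mul_add (diagonal _), add_mul _ _ (diagonal _), mul_one, h1, h2]
    simp only [mul_add, add_mul, mul_one, one_mul, e1, add_zero]
    rw [add_assoc, ← Matrix.single_add]
    congr 2
    ring
  exact key

theorem commutator_GL_eq_ker_det (h : Fintype.card ι = 2 → ∃ a : F, a ≠ 0 ∧ a ≠ 1) :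
    commutator (GL ι F) = (Matrix.GeneralLinearGroup.det : GL ι F →* Fˣ).ker := by
  apply le_antisymm (Abelianization.commutator_subset_ker _)
  intro g hg
  have hdet : (g : Matrix ι ι F).det = 1 := by
    have h1 := congrArg Units.val (MonoidHom.mem_ker.1 hg)
    simpa using h1
  obtain ⟨s, rfl⟩ : ∃ s : SpecialLinearGroup ι F, g = SpecialLinearGroup.toGL s :=
    ⟨⟨g.val, hdet⟩, Units.ext rfl⟩
  rcases subsingleton_or_nontrivial ι with hs | hs
  · rw [Subsingleton.elim s 1, map_one]
    exact one_mem _
  · refine transvection_induction (P := fun s => SpecialLinearGroup.toGL s ∈ commutator (GL ι F))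
      (fun i j hij c => ?_) (fun A B hA hB => by rw [map_mul]; exact mul_mem hA hB) s
    by_cases hc : 3 ≤ Fintype.card ι
    · obtain ⟨k, hik, hkj⟩ := exists_third hc i j
      rw [transvection_eq_commutator hij hik hkj c, map_commutatorElement]
      exact Subgroup.commutator_mem_commutator (Subgroup.mem_top _) (Subgroup.mem_top _)
    · have h2 : Fintype.card ι = 2 := by
        have := Fintype.one_lt_card_iff_nontrivial.2 hs
        omega
      obtain ⟨a, ha0, ha1⟩ := h h2
      have hcm := toGL_transvection_eq_commutator hij a ha0 (c / (a - 1))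
      rw [mul_div_cancel₀ _ (sub_ne_zero.2 ha1)] at hcm
      rw [hcm]
      exact Subgroup.commutator_mem_commutator (Subgroup.mem_top _) (Subgroup.mem_top _)

end Cfsg.Agent.Lib.Helper1.SLn
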