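import Mathlib
import Cfsg.Agent.Lib.Helper1.GLn
import Cfsg.Agent.Lib.Helper1.SLn

set_option autoImplicit false

namespace Cfsg.Agent.Lib.Helper1.GL2U

open Matrix
open scoped Pointwise

variable {F : Type*} [Field F]

def utMat (a : F) : Matrix (Fin 2) (Fin 2) F := !![1, a; 0, 1]

def ltMat (a : F) : Matrix (Fin 2) (Fin 2) F := !![1, 0; a, 1]

theorem utMat_mul (a b : F) : utMat a * utMat b = utMat (a + b) := by
  ext i j
  fin_cases i <;> fin_cases j <;> simp [utMat, Matrix.mul_apply, Fin.sum_univ_two, add_comm]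

theorem utMat_zero : utMat (0 : F) = 1 := by
  ext i j
  fin_cases i <;> fin_cases j <;> simp [utMat]

theorem utMat_inj {a b : F} (h : utMat a = utMat b) : a = b := by
  have := congrFun (congrFun h 0) 1
  simpa [utMat] using this

theorem mat_norm (K : Matrix (Fin 2) (Fin 2) F) (h10 : K 1 0 = 0) (h11 : K 1 1 ≠ 0) (a : F) :
    K * utMat a = utMat (K 0 0 * a / K 1 1) * K := by
  ext i j
  fin_cases i <;> fin_cases j <;>
    simp [utMat, Matrix.mul_apply, Fin.sum_univ_two, h10]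
  field_simp
  ring

theorem mat_key (K : Matrix (Fin 2) (Fin 2) F) (a b : F) (ha : a ≠ 0)
    (h : K * utMat a = utMat b * K) : K 1 0 = 0 := by
  have := congrFun (congrFun h 1) 1
  simp [utMat, Matrix.mul_apply, Fin.sum_univ_two] at this
  rcases this with h1 | h1
  · exact h1
  · exact absurd h1 ha

theorem mat_comm_iff (K : Matrix (Fin 2) (Fin 2) F) (a : F) (ha : a ≠ 0) :
    K * utMat a = utMat a * K ↔ K 1 0 = 0 ∧ K 0 0 = K 1 1 := by
  constructor
  · intro h
    have h10 := mat_key K a a ha h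
    refine ⟨h10, ?_⟩
    have := congrFun (congrFun h 0) 1
    simp [utMat, Matrix.mul_apply, Fin.sum_univ_two] at this
    have h2 : (K 0 0 - K 1 1) * a = 0 := by linear_combination this
    rcases mul_eq_zero.1 h2 with h3 | h3
    · exact sub_eq_zero.1 h3
    · exact absurd h3 ha
  · rintro ⟨h10, h00⟩
    ext i j
    fin_cases i <;> fin_cases j <;>
      simp [utMat, Matrix.mul_apply, Fin.sum_univ_two, h10, h00]
    ring

theorem mat_lower_aux (a b c d t : F) (hdet : a * d - b * c = 1) (hc : c ≠ 0) :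
    !![1, -a / c; 0, 1] * !![a, b; c, d] * !![1, -t / c ^ 2; 0, 1] =
      !![1, 0; t, 1] * (!![1, -a / c; 0, 1] * !![a, b; c, d]) := by
  have hb : b * c = a * d - 1 := by linear_combination -hdet
  simp only [Matrix.mul_fin_two]
  ext i j
  fin_cases i <;> fin_cases j <;> dsimp
  · field_simp
    ring
  · field_simp
    ring
  · field_simp
    ring
  · field_simp
    linear_combination (-c * t) * hb

theorem mat_lower (K : Matrix (Fin 2) (Fin 2) F) (hdet : K.det = 1) (hc : K 1 0 ≠ 0) (t : F) :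
    utMat (-(K 0 0) / K 1 0) * K * utMat (-t / (K 1 0) ^ 2) =
      ltMat t * (utMat (-(K 0 0) / K 1 0) * K) := by
  rw [Matrix.det_fin_two] at hdet
  have h := mat_lower_aux (K 0 0) (K 0 1) (K 1 0) (K 1 1) t hdet hc
  rw [← Matrix.eta_fin_two K] at h
  exact h

theorem mem_smul_sylow {G : Type*} [Group G] {p : ℕ} (g : G) (P : Sylow p G) (x : G) :
    x ∈ (g • P : Sylow p G) ↔ g⁻¹ * x * g ∈ P := by
  rw [Sylow.smul_def, ← SetLike.mem_coe, ← Sylow.coe_coe, Sylow.pointwise_smul_def,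
    SetLike.mem_coe, Subgroup.mem_pointwise_smul_iff_inv_smul_mem]
  simp only [MulAut.smul_def, MulAut.inv_apply, MulAut.conj_symm_apply]
  exact Iff.rfl

noncomputable def ut (a : F) : GL (Fin 2) F :=
  ⟨utMat a, utMat (-a), by rw [utMat_mul, add_neg_cancel, utMat_zero],
    by rw [utMat_mul, neg_add_cancel, utMat_zero]⟩

theorem ut_val (a : F) : ((ut a : GL (Fin 2) F) : Matrix (Fin 2) (Fin 2) F) = utMat a := rfl

theorem ut_mul (a b : F) : ut a * ut b = ut (a + b) :=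
  Units.ext (by rw [Units.val_mul, ut_val, ut_val, ut_val, utMat_mul])

theorem ut_zero : ut (0 : F) = 1 := Units.ext utMat_zero

theorem ut_inj {a b : F} (h : ut a = ut b) : a = b := utMat_inj (congrArg Units.val h)

theorem ut_ne_one {a : F} (ha : a ≠ 0) : ut a ≠ 1 := by
  intro h
  rw [← ut_zero] at h
  exact ha (ut_inj h)

noncomputable def utHom : Multiplicative F →* GL (Fin 2) F where
  toFun a := ut (Multiplicative.toAdd a)
  map_one' := ut_zero
  map_mul' a b := (ut_mul _ _).symm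

noncomputable def UU : Subgroup (GL (Fin 2) F) := (utHom (F := F)).range

theorem mem_UU {g : GL (Fin 2) F} : g ∈ (UU : Subgroup (GL (Fin 2) F)) ↔ ∃ a, g = ut a := by
  constructor
  · rintro ⟨a, rfl⟩
    exact ⟨Multiplicative.toAdd a, rfl⟩
  · rintro ⟨a, rfl⟩
    exact ⟨Multiplicative.ofAdd a, rfl⟩

theorem card_UU [Fintype F] : Nat.card (UU : Subgroup (GL (Fin 2) F)) = Fintype.card F := by
  have hinj : Function.Injective (utHom (F := F)) := fun a b h =>
    Multiplicative.toAdd.injective (ut_inj h)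
  rw [UU, ← Nat.card_congr (MonoidHom.ofInjective hinj).toEquiv, ← Nat.card_eq_fintype_card]
  exact Nat.card_congr Multiplicative.toAdd

theorem gl_diag_ne (g : GL (Fin 2) F) (h : (g : Matrix (Fin 2) (Fin 2) F) 1 0 = 0) :
    (g : Matrix (Fin 2) (Fin 2) F) 0 0 ≠ 0 ∧ (g : Matrix (Fin 2) (Fin 2) F) 1 1 ≠ 0 := by
  have h1 := (Matrix.isUnits_det_units g).ne_zero
  rw [Matrix.det_fin_two, h, mul_zero, sub_zero] at h1
  exact ⟨left_ne_zero_of_mul h1, right_ne_zero_of_mul h1⟩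

def BB : Subgroup (GL (Fin 2) F) where
  carrier := {g | (g : Matrix (Fin 2) (Fin 2) F) 1 0 = 0}
  mul_mem' := by
    intro a b ha hb
    change (a : Matrix (Fin 2) (Fin 2) F) 1 0 = 0 at ha
    change (b : Matrix (Fin 2) (Fin 2) F) 1 0 = 0 at hb
    change ((a * b : GL (Fin 2) F) : Matrix (Fin 2) (Fin 2) F) 1 0 = 0
    rw [Units.val_mul, Matrix.mul_apply, Fin.sum_univ_two, ha, hb]
    ring
  one_mem' := by
    change ((1 : GL (Fin 2) F) : Matrix (Fin 2) (Fin 2) F) 1 0 = 0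
    simp
  inv_mem' := by
    intro a ha
    change (a : Matrix (Fin 2) (Fin 2) F) 1 0 = 0 at ha
    change ((a⁻¹ : GL (Fin 2) F) : Matrix (Fin 2) (Fin 2) F) 1 0 = 0
    have h1 : ((a⁻¹ * a : GL (Fin 2) F) : Matrix (Fin 2) (Fin 2) F) 1 0 = 0 := by
      rw [inv_mul_cancel]
      simp
    rw [Units.val_mul, Matrix.mul_apply, Fin.sum_univ_two, ha, mul_zero, add_zero] at h1
    rcases mul_eq_zero.1 h1 with h2 | h2
    · exact h2
    · exact absurd h2 (gl_diag_ne a ha).1

theorem mem_BB {g : GL (Fin 2) F} :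
    g ∈ (BB : Subgroup (GL (Fin 2) F)) ↔ (g : Matrix (Fin 2) (Fin 2) F) 1 0 = 0 := Iff.rfl

theorem conj_mem_UU {k : GL (Fin 2) F} (hk : k ∈ (BB : Subgroup (GL (Fin 2) F)))
    {u : GL (Fin 2) F} (hu : u ∈ (UU : Subgroup (GL (Fin 2) F))) : k * u * k⁻¹ ∈ (UU : Subgroup (GL (Fin 2) F)) := by
  obtain ⟨a, rfl⟩ := mem_UU.1 hu
  have h11 := (gl_diag_ne k hk).2
  have h1 := mat_norm (k : Matrix (Fin 2) (Fin 2) F) hk h11 a
  refine mem_UU.2 ⟨(k : Matrix (Fin 2) (Fin 2) F) 0 0 * a / (k : Matrix (Fin 2) (Fin 2) F) 1 1, ?_⟩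
  rw [mul_inv_eq_iff_eq_mul]
  exact Units.ext h1

theorem gl_key {g : GL (Fin 2) F} {a b : F} (ha : a ≠ 0) (h : g * ut a = ut b * g) :
    g ∈ (BB : Subgroup (GL (Fin 2) F)) :=
  mat_key (g : Matrix (Fin 2) (Fin 2) F) a b ha (congrArg Units.val h)

theorem normalizer_UU :
    Subgroup.normalizer ((UU : Subgroup (GL (Fin 2) F)) : Set (GL (Fin 2) F)) = BB := by
  ext g
  rw [Subgroup.mem_normalizer_iff]
  constructor
  · intro h
    have h1 : g * ut 1 * g⁻¹ ∈ (UU : Subgroup (GL (Fin 2) F)) := (h (ut 1)).1 (mem_UU.2 ⟨1, rfl⟩)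
    obtain ⟨b, hb⟩ := mem_UU.1 h1
    have h2 : g * ut 1 = ut b * g := by
      rw [← hb]
      group
    exact gl_key one_ne_zero h2
  · intro hg u
    constructor
    · exact conj_mem_UU hg
    · intro hu
      have h1 := conj_mem_UU (BB.inv_mem hg) hu
      have h2 : g⁻¹ * (g * u * g⁻¹) * g⁻¹⁻¹ = u := by group
      rwa [h2] at h1

noncomputable def bbMk (x z : Fˣ) (y : F) : GL (Fin 2) F :=
  Matrix.GeneralLinearGroup.mkOfDetNeZero !![(x : F), y; 0, (z : F)]
    (by rw [Matrix.det_fin_two_of]; simp)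

theorem bbMk_val (x z : Fˣ) (y : F) :
    ((bbMk x z y : GL (Fin 2) F) : Matrix (Fin 2) (Fin 2) F) = !![(x : F), y; 0, (z : F)] := rfl

noncomputable def bbEquiv : (BB : Subgroup (GL (Fin 2) F)) ≃ Fˣ × Fˣ × F where
  toFun g := (Units.mk0 _ (gl_diag_ne g.1 g.2).1, Units.mk0 _ (gl_diag_ne g.1 g.2).2,
    (g.1 : Matrix (Fin 2) (Fin 2) F) 0 1)
  invFun t := ⟨bbMk t.1 t.2.1 t.2.2, by rw [mem_BB, bbMk_val]; simp⟩
  left_inv g := by
    apply Subtype.ext
    apply Units.ext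
    have h10 : (g.1 : Matrix (Fin 2) (Fin 2) F) 1 0 = 0 := g.2
    change !![_, _; _, _] = (g.1 : Matrix (Fin 2) (Fin 2) F)
    ext i j
    fin_cases i <;> fin_cases j <;> simp [h10]
  right_inv t := by
    obtain ⟨x, z, y⟩ := t
    refine Prod.ext (Units.ext ?_) (Prod.ext (Units.ext ?_) ?_)
    · simp [bbMk_val]
    · simp [bbMk_val]
    · simp [bbMk_val]

theorem card_BB [Fintype F] :
    Nat.card (BB : Subgroup (GL (Fin 2) F)) = Fintype.card F * (Fintype.card F - 1) ^ 2 := by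
  rw [Nat.card_congr bbEquiv, Nat.card_prod, Nat.card_prod, Nat.card_units,
    Nat.card_eq_fintype_card]
  ring

theorem centralizer_ut {a : F} (ha : a ≠ 0) (g : GL (Fin 2) F) :
    g ∈ Subgroup.centralizer ({ut a} : Set (GL (Fin 2) F)) ↔
      (g : Matrix (Fin 2) (Fin 2) F) 1 0 = 0 ∧
        (g : Matrix (Fin 2) (Fin 2) F) 0 0 = (g : Matrix (Fin 2) (Fin 2) F) 1 1 := by
  rw [Subgroup.mem_centralizer_singleton_iff, ← mat_comm_iff _ a ha]
  constructor
  · intro h
    exact congrArg Units.val h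
  · intro h
    exact Units.ext h

noncomputable def ccEquiv {a : F} (ha : a ≠ 0) :
    (Subgroup.centralizer ({ut a} : Set (GL (Fin 2) F)) : Subgroup (GL (Fin 2) F)) ≃ Fˣ × F where
  toFun g := (Units.mk0 _ (gl_diag_ne g.1 ((centralizer_ut ha g.1).1 g.2).1).1,
    (g.1 : Matrix (Fin 2) (Fin 2) F) 0 1)
  invFun t := ⟨bbMk t.1 t.1 t.2, (centralizer_ut ha _).2 (by rw [bbMk_val]; simp)⟩
  left_inv g := by
    apply Subtype.ext
    apply Units.ext
    have h10 := ((centralizer_ut ha g.1).1 g.2).1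
    have h11 := ((centralizer_ut ha g.1).1 g.2).2
    change !![_, _; _, _] = (g.1 : Matrix (Fin 2) (Fin 2) F)
    ext i j
    fin_cases i <;> fin_cases j <;> simp [h10, h11]
  right_inv t := by
    obtain ⟨x, y⟩ := t
    refine Prod.ext (Units.ext ?_) ?_
    · simp [bbMk_val]
    · simp [bbMk_val]

theorem card_centralizer_ut [Fintype F] {a : F} (ha : a ≠ 0) :
    Nat.card (Subgroup.centralizer ({ut a} : Set (GL (Fin 2) F)) : Subgroup (GL (Fin 2) F)) =
      Fintype.card F * (Fintype.card F - 1) := by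
  rw [Nat.card_congr (ccEquiv ha), Nat.card_prod, Nat.card_units, Nat.card_eq_fintype_card]
  ring

theorem card_GL2 [Fintype F] :
    Nat.card (GL (Fin 2) F) =
      (Fintype.card F + 1) * (Fintype.card F * (Fintype.card F - 1) ^ 2) := by
  rw [Matrix.card_GL_field, Fin.prod_univ_two]
  have hq : 1 ≤ Fintype.card F := Fintype.card_pos
  obtain ⟨m, hm⟩ : ∃ m, Fintype.card F = m + 1 := ⟨Fintype.card F - 1, by omega⟩
  rw [hm]
  have h1 : (m + 1) ^ 2 - (m + 1) ^ ((0 : Fin 2) : ℕ) = m * (m + 2) := by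
    rw [Nat.sub_eq_iff_eq_add (Nat.pow_le_pow_right (by omega) (by simp))]
    simp
    ring
  have h2 : (m + 1) ^ 2 - (m + 1) ^ ((1 : Fin 2) : ℕ) = m * (m + 1) := by
    rw [Nat.sub_eq_iff_eq_add (Nat.pow_le_pow_right (by omega) (by simp))]
    simp
    ring
  rw [h1, h2, Nat.add_sub_cancel]
  ring

theorem exists_sylow_UU [Fintype F] (p : ℕ) [Fact p.Prime] [CharP F p] :
    ∃ P : Sylow p (GL (Fin 2) F), (P : Subgroup (GL (Fin 2) F)) = UU := by
  have P : Sylow p (GL (Fin 2) F) := default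
  have h1 := GLn.card_sylow_GL p 2 P
  have h2 := Sylow.card_eq_multiplicity P
  refine ⟨Sylow.ofCard UU ?_, rfl⟩
  rw [card_UU, ← h2, h1]
  norm_num

theorem card_normalizer_sylow [Fintype F] (p : ℕ) [Fact p.Prime] [CharP F p]
    (P : Sylow p (GL (Fin 2) F)) :
    Nat.card (Subgroup.normalizer ((P : Subgroup (GL (Fin 2) F)) : Set (GL (Fin 2) F))) =
      Fintype.card F * (Fintype.card F - 1) ^ 2 := by
  obtain ⟨U, hU⟩ := exists_sylow_UU (F := F) p
  have h1 : Nat.card (Sylow p (GL (Fin 2) F)) = (Subgroup.normalizer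
      ((P : Subgroup (GL (Fin 2) F)) : Set (GL (Fin 2) F))).index :=
    Sylow.card_eq_index_normalizer P
  have h2 : Nat.card (Sylow p (GL (Fin 2) F)) = (Subgroup.normalizer
      ((U : Subgroup (GL (Fin 2) F)) : Set (GL (Fin 2) F))).index :=
    Sylow.card_eq_index_normalizer U
  have h3 := Subgroup.card_mul_index
    (Subgroup.normalizer ((P : Subgroup (GL (Fin 2) F)) : Set (GL (Fin 2) F)))
  have h4 := Subgroup.card_mul_index
    (Subgroup.normalizer ((U : Subgroup (GL (Fin 2) F)) : Set (GL (Fin 2) F)))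
  rw [← h1] at h3
  rw [← h2, hU, normalizer_UU, card_BB] at h4
  have hpos : 0 < Nat.card (Sylow p (GL (Fin 2) F)) := Nat.card_pos
  exact Nat.eq_of_mul_eq_mul_right hpos (h3.trans h4.symm)

theorem card_sylow [Fintype F] (p : ℕ) [Fact p.Prime] [CharP F p] :
    Nat.card (Sylow p (GL (Fin 2) F)) = Fintype.card F + 1 := by
  obtain ⟨U, hU⟩ := exists_sylow_UU (F := F) p
  have h2 : Nat.card (Sylow p (GL (Fin 2) F)) = (Subgroup.normalizer
      ((U : Subgroup (GL (Fin 2) F)) : Set (GL (Fin 2) F))).index :=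
    Sylow.card_eq_index_normalizer U
  have h4 := Subgroup.card_mul_index
    (Subgroup.normalizer ((U : Subgroup (GL (Fin 2) F)) : Set (GL (Fin 2) F)))
  rw [← h2, hU, normalizer_UU, card_BB, card_GL2, mul_comm] at h4
  have hq : 2 ≤ Fintype.card F := Fintype.one_lt_card
  have hpos : 0 < Fintype.card F * (Fintype.card F - 1) ^ 2 := by
    apply Nat.mul_pos (by omega)
    apply pow_pos
    omega
  exact Nat.eq_of_mul_eq_mul_right hpos h4

theorem sylow_ti [Fintype F] (p : ℕ) [Fact p.Prime] [CharP F p]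
    (P Q : Sylow p (GL (Fin 2) F)) (h : P ≠ Q) :
    (P : Subgroup (GL (Fin 2) F)) ⊓ (Q : Subgroup (GL (Fin 2) F)) = ⊥ := by
  obtain ⟨U, hU⟩ := exists_sylow_UU (F := F) p
  obtain ⟨g, hg⟩ := MulAction.exists_smul_eq (GL (Fin 2) F) U P
  obtain ⟨k, hk⟩ := MulAction.exists_smul_eq (GL (Fin 2) F) U Q
  rw [eq_bot_iff]
  intro x hx
  rw [Subgroup.mem_bot]
  by_contra hx1
  apply h
  have hxP : x ∈ P := hx.1
  have hxQ : x ∈ Q := hx.2
  rw [← hg, mem_smul_sylow] at hxP
  rw [← hk, mem_smul_sylow] at hxQ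
  change g⁻¹ * x * g ∈ (U : Subgroup (GL (Fin 2) F)) at hxP
  change k⁻¹ * x * k ∈ (U : Subgroup (GL (Fin 2) F)) at hxQ
  rw [hU] at hxP hxQ
  obtain ⟨a, ha⟩ := mem_UU.1 hxP
  obtain ⟨b, hb⟩ := mem_UU.1 hxQ
  have hb0 : b ≠ 0 := by
    rintro rfl
    rw [ut_zero] at hb
    apply hx1
    have : x = k * (k⁻¹ * x * k) * k⁻¹ := by group
    rw [this, hb]
    group
  have h1 : (g⁻¹ * k) * ut b = ut a * (g⁻¹ * k) := by
    rw [← ha, ← hb]
    group
  have h2 : g⁻¹ * k ∈ (BB : Subgroup (GL (Fin 2) F)) := gl_key hb0 h1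
  rw [← normalizer_UU, ← hU] at h2
  have h2' : (g⁻¹ * k) • U = U := Sylow.smul_eq_iff_mem_normalizer.2 h2
  rw [← hg, ← hk]
  have h3 : k = g * (g⁻¹ * k) := by group
  rw [h3, mul_smul, h2']

theorem card_centralizer [Fintype F] (p : ℕ) [Fact p.Prime] [CharP F p]
    (P : Sylow p (GL (Fin 2) F)) (x : GL (Fin 2) F) (hx : x ∈ P) (hx1 : x ≠ 1) :
    Nat.card (Subgroup.centralizer ({x} : Set (GL (Fin 2) F))) =
      Fintype.card F * (Fintype.card F - 1) := by
  obtain ⟨U, hU⟩ := exists_sylow_UU (F := F) p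
  obtain ⟨g, hg⟩ := MulAction.exists_smul_eq (GL (Fin 2) F) U P
  rw [← hg, mem_smul_sylow] at hx
  change g⁻¹ * x * g ∈ (U : Subgroup (GL (Fin 2) F)) at hx
  rw [hU] at hx
  obtain ⟨a, ha⟩ := mem_UU.1 hx
  have ha0 : a ≠ 0 := by
    rintro rfl
    rw [ut_zero] at ha
    apply hx1
    have : x = g * (g⁻¹ * x * g) * g⁻¹ := by group
    rw [this, ha]
    group
  rw [← card_centralizer_ut ha0]
  refine Nat.card_congr (Equiv.subtypeEquiv (MulAut.conj g⁻¹).toEquiv ?_)
  intro y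
  rw [Subgroup.mem_centralizer_singleton_iff, Subgroup.mem_centralizer_singleton_iff, ← ha]
  simp only [MulEquiv.toEquiv_eq_coe, EquivLike.coe_coe, MulAut.conj_apply, inv_inv]
  constructor
  · intro h1
    have : g⁻¹ * y * g * (g⁻¹ * x * g) = g⁻¹ * (y * x) * g := by group
    rw [this, h1]
    group
  · intro h1
    have e1 : y * x = g * (g⁻¹ * y * g * (g⁻¹ * x * g)) * g⁻¹ := by group
    rw [e1, h1]
    group

end Cfsg.Agent.Lib.Helper1.GL2U
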