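import Mathlib

set_option autoImplicit false

namespace Cfsg.Agent.Lib.Helper1.PSLp

def Upow (p e y : ℕ) : ℕ := if y = p then p else (y + e) % p

def Mpow (p A e y : ℕ) : ℕ := if y = p then p else (A ^ e * y) % p

def Tc (p A : ℕ) (dl : ℕ → ℕ) (sq : ℕ → Bool) (j c1 c2 y : ℕ) : ℕ :=
  if y = p then 0 else if y = 0 then p else (A ^ (j * dl y) * (if sq y then c1 else c2)) % p

def syl (p h A : ℕ) (T : ℕ → ℕ) (s y : ℕ) : ℕ :=
  if s < p then Upow p s y else if s < p + h then Mpow p A (s - p) y else T y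

def evalW (p h A : ℕ) (T : ℕ → ℕ) : List ℕ → ℕ → ℕ
  | [], x => x
  | s :: w, x => syl p h A T s (evalW p h A T w x)

def Chk (p h A n0 : ℕ) (dl : ℕ → ℕ) (sq : ℕ → Bool) (j0 : ℕ) (b0 : Bool) (c20 : ℕ)
    (useB : Bool) (cert : List ℕ) (j : ℕ) (b : Bool) (c2 : ℕ) : Prop :=
  (cert.headD 0 = 0 ∧ j = j0 ∧ b = b0 ∧ c2 = c20) ∨
  (cert.headD 0 = 1 ∧ cert.getD 1 0 ≠ cert.getD 2 0 ∧ cert.getD 1 0 ≤ p ∧ cert.getD 2 0 ≤ p ∧
    Tc p A dl sq j (if b then 1 else n0) c2 (cert.getD 1 0)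
      = Tc p A dl sq j (if b then 1 else n0) c2 (cert.getD 2 0)) ∨
  (cert.headD 0 = 2 ∧ cert.getD 1 0 ≤ p ∧
    evalW p h A (Tc p A dl sq j (if b then 1 else n0) c2) (cert.drop 2) p = p ∧
    evalW p h A (Tc p A dl sq j (if b then 1 else n0) c2) (cert.drop 2) 0 = 0 ∧
    ∀ i < h, evalW p h A (Tc p A dl sq j (if b then 1 else n0) c2) (cert.drop 2) 1 ≠ Mpow p A i 1 ∨
      evalW p h A (Tc p A dl sq j (if b then 1 else n0) c2) (cert.drop 2) (cert.getD 1 0)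
        ≠ Mpow p A i (cert.getD 1 0)) ∨
  (cert.headD 0 = 3 ∧ useB = true ∧ j = 1)

instance (p h A n0 : ℕ) (dl : ℕ → ℕ) (sq : ℕ → Bool) (j0 : ℕ) (b0 : Bool) (c20 : ℕ)
    (useB : Bool) (cert : List ℕ) (j : ℕ) (b : Bool) (c2 : ℕ) :
    Decidable (Chk p h A n0 dl sq j0 b0 c20 useB cert j b c2) := by
  unfold Chk
  infer_instance

end Cfsg.Agent.Lib.Helper1.PSLp
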