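import Mathlib
import Cfsg.Agent.Lib.Helper1.PSLpA

set_option autoImplicit false

namespace Cfsg.Agent.Lib.Helper1.PSLp

open MulAction

structure IsZData {G Ω : Type*} [Group G] [MulAction G Ω] (p h A : ℕ) (inf o : Ω) (u m g : G)
    (j : ℕ) : Prop where
  ho : o ≠ inf
  hu_inf : u • inf = inf
  hup : u ^ p = 1
  hu_inj : ∀ k k' : ℕ, k < p → k' < p → u ^ k • o = u ^ k' • o → k = k'
  hu_ne : ∀ k : ℕ, u ^ k • o ≠ inf
  hu_surj : ∀ x : Ω, x ≠ inf → ∃ k < p, x = u ^ k • o
  hm_inf : m • inf = inf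
  hm : ∀ k : ℕ, m • (u ^ k • o) = u ^ (A * k) • o
  hmh : m ^ h = 1
  hD : ∀ x : G, x • inf = inf → x • o = o → ∃ i : ℕ, x = m ^ i
  hg_inf : g • inf = o
  hg_o : g • o = inf
  hgm : g * m = m ^ j * g
  hcl : Subgroup.closure {u, m, g} = ⊤

variable {G Ω : Type*} [Group G] [MulAction G Ω]

theorem smul_pow_fix {x : G} {w : Ω} (h : x • w = w) (n : ℕ) : x ^ n • w = w := by
  induction n with
  | zero => simp
  | succ n ih => rw [pow_succ, mul_smul, h, ih]

theorem smul_inv_fix {x : G} {w : Ω} (h : x • w = w) : x⁻¹ • w = w := by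
  rw [inv_smul_eq_iff, h]

theorem fix_unique [Finite Ω] [FaithfulSMul G Ω] (p : ℕ) [Fact p.Prime] (hΩ : Nat.card Ω = p + 1)
    (u : G) (hu : orderOf u = p) (inf : Ω) (hinf : u • inf = inf) (x : Ω) (hx : u • x = x) :
    x = inf := by
  by_contra hne
  have hp := (Fact.out : p.Prime)
  have hP : IsPGroup p (Subgroup.zpowers u) :=
    IsPGroup.of_card (n := 1) (by rw [Nat.card_zpowers, hu, pow_one])
  have h1 := hP.card_modEq_card_fixedPoints Ω
  have hfix : ∀ y : Ω, u • y = y → y ∈ fixedPoints (Subgroup.zpowers u) Ω := by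
    rintro y hy ⟨z, hz⟩
    obtain ⟨k, rfl⟩ := Subgroup.mem_zpowers_iff.mp hz
    have h2 : u ∈ stabilizer G y := hy
    exact (stabilizer G y).zpow_mem h2 k
  have h2 : ({inf, x} : Set Ω) ⊆ fixedPoints (Subgroup.zpowers u) Ω := by
    intro y hy
    rcases hy with rfl | rfl
    · exact hfix _ hinf
    · exact hfix _ hx
  have h3 : 2 ≤ (fixedPoints (Subgroup.zpowers u) Ω).ncard := by
    have := Set.ncard_le_ncard h2 (Set.toFinite _)
    rwa [Set.ncard_pair (Ne.symm hne)] at this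
  have h4 : (fixedPoints (Subgroup.zpowers u) Ω).ncard ≤ p + 1 := by
    rw [← hΩ, ← Set.ncard_univ]
    exact Set.ncard_le_ncard (Set.subset_univ _) (Set.toFinite _)
  rw [Nat.card_coe_set_eq, hΩ] at h1
  have h5 : (fixedPoints (Subgroup.zpowers u) Ω).ncard = p + 1 := by
    have h6 := (Nat.modEq_iff_dvd' h4).mp h1.symm
    have h7 : p + 1 - (fixedPoints (Subgroup.zpowers u) Ω).ncard < p := by omega
    have h8 := Nat.eq_zero_of_dvd_of_lt h6 h7
    omega
  have h9 : fixedPoints (Subgroup.zpowers u) Ω = Set.univ := by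
    apply Set.eq_of_subset_of_ncard_le (Set.subset_univ _) _ (Set.toFinite _)
    rw [Set.ncard_univ, hΩ, h5]
  have h10 : u = 1 := by
    apply FaithfulSMul.eq_of_smul_eq_smul (α := Ω)
    intro y
    rw [one_smul]
    have : y ∈ fixedPoints (Subgroup.zpowers u) Ω := by rw [h9]; trivial
    exact this ⟨u, Subgroup.mem_zpowers u⟩
  rw [h10, orderOf_one] at hu
  exact hp.one_lt.ne hu

theorem fix_of_pow_fix (p : ℕ) [Fact p.Prime] (u : G) (hup : u ^ p = 1) (k : ℕ) (hk0 : 0 < k)
    (hkp : k < p) (w : Ω) (h : u ^ k • w = w) : u • w = w := by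
  have hp := (Fact.out : p.Prime)
  have hcop : Nat.Coprime k p :=
    Nat.coprime_comm.mp (hp.coprime_iff_not_dvd.mpr (Nat.not_dvd_of_pos_of_lt hk0 hkp))
  obtain ⟨l, -, hl⟩ := Nat.exists_mul_mod_eq_one_of_coprime hcop hp.one_lt
  have h1 : u = (u ^ k) ^ l := by
    rw [← pow_mul, pow_eq_pow_mod (k * l) hup, hl, pow_one]
  rw [h1]
  exact smul_pow_fix h l

theorem pts_ne (u : G) (inf o : Ω) (hinf : u • inf = inf) (ho : o ≠ inf) (k : ℕ) :
    u ^ k • o ≠ inf := by
  intro h
  apply ho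
  have h1 : u ^ k • inf = inf := smul_pow_fix hinf k
  have : u ^ k • o = u ^ k • inf := by rw [h, h1]
  exact MulAction.injective (u ^ k) this

theorem pts_inj [Finite Ω] [FaithfulSMul G Ω] (p : ℕ) [Fact p.Prime] (hΩ : Nat.card Ω = p + 1)
    (u : G) (hu : orderOf u = p) (inf o : Ω) (hinf : u • inf = inf) (ho : o ≠ inf)
    (k k' : ℕ) (hk : k < p) (hk' : k' < p) (h : u ^ k • o = u ^ k' • o) : k = k' := by
  have hup : u ^ p = 1 := by rw [← hu]; exact pow_orderOf_eq_one u
  have key : ∀ a b : ℕ, a ≤ b → b < p → u ^ a • o = u ^ b • o → a = b := by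
    intro a b hab hb he
    by_contra hne
    have h1 : u ^ (b - a) • o = o := by
      have : u ^ b = u ^ a * u ^ (b - a) := by
        rw [← pow_add]
        congr 1
        omega
      rw [this, mul_smul] at he
      exact (MulAction.injective (u ^ a) he).symm
    have h2 := fix_of_pow_fix p u hup (b - a) (by omega) (by omega) o h1
    exact ho (fix_unique p hΩ u hu inf hinf o h2)
  rcases le_total k k' with h1 | h1
  · exact key k k' h1 hk' h
  · exact (key k' k h1 hk h.symm).symm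

theorem pts_surj [Finite Ω] [FaithfulSMul G Ω] (p : ℕ) [Fact p.Prime] (hΩ : Nat.card Ω = p + 1)
    (u : G) (hu : orderOf u = p) (inf o : Ω) (hinf : u • inf = inf) (ho : o ≠ inf)
    (x : Ω) (hx : x ≠ inf) : ∃ k < p, x = u ^ k • o := by
  classical
  haveI := Fintype.ofFinite Ω
  let f : Fin p → {y : Ω // y ≠ inf} := fun k => ⟨u ^ (k : ℕ) • o, pts_ne u inf o hinf ho k⟩
  have hf : Function.Injective f := by
    intro a b hab
    apply Fin.ext
    exact pts_inj p hΩ u hu inf o hinf ho a b a.2 b.2 (congrArg Subtype.val hab)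
  have hcard : Nat.card {y : Ω // y ≠ inf} ≤ Nat.card (Fin p) := by
    rw [Nat.card_eq_fintype_card, Nat.card_eq_fintype_card, Fintype.card_fin,
      Fintype.card_subtype_compl, Fintype.card_subtype_eq, ← Nat.card_eq_fintype_card, hΩ]
    simp
  have hb := hf.bijective_of_nat_card_le hcard
  obtain ⟨k, hk⟩ := hb.2 ⟨x, hx⟩
  exact ⟨k, k.2, (congrArg Subtype.val hk).symm⟩

theorem conj_mem_powers [Finite G] (p h : ℕ) [Fact p.Prime] (hh : 0 < h) (hhp : h < p)
    (S : Subgroup G) (hS : Nat.card S = p * h) (u : G) (huS : u ∈ S) (hu : orderOf u = p)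
    (s : G) (hs : s ∈ S) : ∃ k : ℕ, s * u * s⁻¹ = u ^ k := by
  have hp := (Fact.out : p.Prime)
  have hu' : orderOf (⟨u, huS⟩ : S) = p := by rw [Subgroup.orderOf_mk]; exact hu
  have hP0 : IsPGroup p (Subgroup.zpowers (⟨u, huS⟩ : S)) :=
    IsPGroup.of_card (n := 1) (by rw [Nat.card_zpowers, hu', pow_one])
  obtain ⟨Q, hQ⟩ := hP0.exists_le_sylow
  obtain ⟨n, hn⟩ := IsPGroup.iff_card.mp Q.2
  have hQdvd : Nat.card (Q : Subgroup S) ∣ p * h := by
    rw [← hS]
    exact Subgroup.card_subgroup_dvd_card _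
  have hP0card : Nat.card (Subgroup.zpowers (⟨u, huS⟩ : S)) = p := by
    rw [Nat.card_zpowers, hu']
  have hle : p ≤ Nat.card (Q : Subgroup S) := by
    have := Subgroup.card_le_of_le hQ
    rw [hP0card] at this
    exact this
  have hQcard : Nat.card (Q : Subgroup S) = p := by
    rw [hn] at hQdvd hle ⊢
    rcases n with _ | _ | n
    · simp at hle
      have := hp.one_lt
      omega
    · simp
    · exfalso
      have h1 : p ^ 2 ∣ p * h := by
        refine dvd_trans ?_ hQdvd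
        exact pow_dvd_pow p (by omega)
      rw [pow_two] at h1
      have h2 : p ∣ h := (Nat.mul_dvd_mul_iff_left hp.pos).mp h1
      have := Nat.le_of_dvd hh h2
      omega
  have hQeq : Subgroup.zpowers (⟨u, huS⟩ : S) = (Q : Subgroup S) :=
    Subgroup.eq_of_le_of_card_ge hQ (by rw [hQcard, hP0card])
  have hidx : (Q : Subgroup S).index = h := by
    have h1 := Subgroup.index_mul_card (Q : Subgroup S)
    rw [hQcard, hS, mul_comm p h] at h1
    exact Nat.eq_of_mul_eq_mul_right hp.pos h1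
  have hn1 : Nat.card (Sylow p S) = 1 := by
    have h1 := Sylow.card_dvd_index Q
    rw [hidx] at h1
    have h2 := Nat.le_of_dvd hh h1
    have h3 := card_sylow_modEq_one p S
    have h4 : Nat.card (Sylow p S) % p = 1 % p := h3
    rw [Nat.mod_eq_of_lt (by omega), Nat.mod_eq_of_lt hp.one_lt] at h4
    exact h4
  haveI : Subsingleton (Sylow p S) := (Nat.card_eq_one_iff_unique.mp hn1).1
  haveI := Sylow.normal_of_subsingleton Q
  have hmem : (⟨s, hs⟩ : S) * ⟨u, huS⟩ * (⟨s, hs⟩ : S)⁻¹ ∈ Subgroup.zpowers (⟨u, huS⟩ : S) := by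
    rw [hQeq]
    apply Subgroup.Normal.conj_mem inferInstance
    rw [← hQeq]
    exact Subgroup.mem_zpowers _
  obtain ⟨k, hk⟩ := mem_powers_iff_mem_zpowers.mpr hmem
  refine ⟨k, ?_⟩
  have := congrArg (Subtype.val) hk
  simp only [Subgroup.coe_pow, Subgroup.coe_mul, Subgroup.coe_inv] at this
  exact this.symm

theorem conj_pow_smul (d u : G) (k : ℕ) (hd : d * u * d⁻¹ = u ^ k) (i : ℕ) (w : Ω) :
    d • (u ^ i • w) = u ^ (k * i) • (d • w) := by
  have h1 : d * u ^ i = (u ^ k) ^ i * d := by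
    have : SemiconjBy d u (u ^ k) := by
      show d * u = u ^ k * d
      rw [← hd]
      group
    exact this.pow_right i
  rw [← mul_smul, h1, mul_smul, pow_mul]

end Cfsg.Agent.Lib.Helper1.PSLp
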