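import Mathlib
import Cfsg.Agent.Lib.Helper1.PSLpB

set_option autoImplicit false

namespace Cfsg.Agent.Lib.Helper1.PSLp

open MulAction

variable {G Ω : Type*} [Group G] [MulAction G Ω]

theorem card_stab2 [Finite G] [Finite Ω] [FaithfulSMul G Ω] (p h : ℕ) [Fact p.Prime]
    (hΩ : Nat.card Ω = p + 1) (inf o : Ω) (ho : o ≠ inf)
    (hS : Nat.card (stabilizer G inf) = p * h)
    (u : G) (huS : u ∈ stabilizer G inf) (hu : orderOf u = p) :
    Nat.card (stabilizer (stabilizer G inf) o) = h := by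
  have hp := (Fact.out : p.Prime)
  have hu_inf : u • inf = inf := huS
  have h1 : (stabilizer (stabilizer G inf) o).index = (orbit (stabilizer G inf) o).ncard :=
    index_stabilizer _ _
  have h2 : orbit (stabilizer G inf) o = ({inf} : Set Ω)ᶜ := by
    ext x
    constructor
    · rintro ⟨s, rfl⟩
      intro hx
      have hx' : (s : G) • o = inf := hx
      have hs : (s : G) • inf = inf := s.2
      apply ho
      have : (s : G) • o = (s : G) • inf := by rw [hx', hs]
      exact MulAction.injective (s : G) this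
    · intro hx
      obtain ⟨k, -, rfl⟩ := pts_surj p hΩ u hu inf o hu_inf ho x hx
      exact ⟨(⟨u, huS⟩ : stabilizer G inf) ^ k, rfl⟩
  have h3 : (orbit (stabilizer G inf) o).ncard = p := by
    rw [h2, Set.ncard_compl, hΩ, Set.ncard_singleton]
    omega
  have h4 := Subgroup.index_mul_card (stabilizer (stabilizer G inf) o)
  rw [h1, h3, hS] at h4
  exact Nat.eq_of_mul_eq_mul_left hp.pos h4

theorem exists_m [Finite G] [Finite Ω] [FaithfulSMul G Ω] (p h A : ℕ) [Fact p.Prime]
    (hh : 0 < h) (hhp : h < p)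
    (hA1 : A ^ h % p = 1) (hA2 : ∀ e, 0 < e → e < h → A ^ e % p ≠ 1)
    (hΩ : Nat.card Ω = p + 1) (inf o : Ω) (ho : o ≠ inf)
    (hS : Nat.card (stabilizer G inf) = p * h)
    (u : G) (huS : u ∈ stabilizer G inf) (hu : orderOf u = p) :
    ∃ m : G, m • inf = inf ∧ (∀ k : ℕ, m • (u ^ k • o) = u ^ (A * k) • o) ∧ m ^ h = 1 ∧
      ∀ x : G, x • inf = inf → x • o = o → ∃ i : ℕ, x = m ^ i := by
  classical
  have hp := (Fact.out : p.Prime)
  have hu_inf : u • inf = inf := huS
  have hup : u ^ p = 1 := by rw [← hu]; exact pow_orderOf_eq_one u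
  have hinj := pts_inj p hΩ u hu inf o hu_inf ho
  have hsurj := pts_surj p hΩ u hu inf o hu_inf ho
  have hR : ∀ d : G, d • inf = inf → d • o = o →
      ∃ k : ℕ, ∀ i : ℕ, d • (u ^ i • o) = u ^ (k * i) • o := by
    intro d hd1 hd2
    obtain ⟨k, hk⟩ := conj_mem_powers p h hh hhp (stabilizer G inf) hS u huS hu d hd1
    refine ⟨k, fun i => ?_⟩
    rw [conj_pow_smul d u k hk i o, hd2]
  have hT := card_stab2 p h hΩ inf o ho hS u huS hu
  have hd1 : ∀ d : stabilizer (stabilizer G inf) o, ((d : stabilizer G inf) : G) • inf = inf :=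
    fun d => d.1.2
  have hd2 : ∀ d : stabilizer (stabilizer G inf) o, ((d : stabilizer G inf) : G) • o = o :=
    fun d => d.2
  let κ : stabilizer (stabilizer G inf) o → ZMod p := fun d =>
    ((Classical.choose (hR _ (hd1 d) (hd2 d)) : ℕ) : ZMod p)
  have hκ1 : ∀ (d : stabilizer (stabilizer G inf) o) (k : ℕ), (k : ZMod p) = κ d →
      ∀ i : ℕ, ((d : stabilizer G inf) : G) • (u ^ i • o) = u ^ (k * i) • o := by
    intro d k hk i
    have h1 := Classical.choose_spec (hR _ (hd1 d) (hd2 d)) i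
    rw [h1]
    have h2 : k % p = Classical.choose (hR _ (hd1 d) (hd2 d)) % p :=
      (ZMod.natCast_eq_natCast_iff' _ _ _).mp hk
    have h3 : (Classical.choose (hR _ (hd1 d) (hd2 d)) * i) % p = (k * i) % p :=
      Nat.ModEq.mul_right i h2.symm
    rw [pow_eq_pow_mod _ hup, h3, ← pow_eq_pow_mod _ hup]
  have hκ2 : ∀ (d : stabilizer (stabilizer G inf) o) (k : ℕ),
      (∀ i : ℕ, ((d : stabilizer G inf) : G) • (u ^ i • o) = u ^ (k * i) • o) →
      (k : ZMod p) = κ d := by
    intro d k hk
    have h1 := Classical.choose_spec (hR _ (hd1 d) (hd2 d)) 1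
    rw [hk 1, mul_one, mul_one, pow_eq_pow_mod _ hup,
      pow_eq_pow_mod (Classical.choose (hR _ (hd1 d) (hd2 d))) hup] at h1
    have h2 := hinj _ _ (Nat.mod_lt _ hp.pos) (Nat.mod_lt _ hp.pos) h1
    exact (ZMod.natCast_eq_natCast_iff' _ _ _).mpr h2
  have hκone : κ 1 = 1 := by
    have := hκ2 1 1 (fun i => by simp)
    rw [← this]
    simp
  have hκmul : ∀ d d' : stabilizer (stabilizer G inf) o, κ (d * d') = κ d * κ d' := by
    intro d d'
    obtain ⟨k, hk⟩ := ZMod.natCast_zmod_surjective (κ d)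
    obtain ⟨k', hk'⟩ := ZMod.natCast_zmod_surjective (κ d')
    have := hκ2 (d * d') (k * k') (fun i => by
      have e1 := hκ1 d' k' hk' i
      have e2 := hκ1 d k hk (k' * i)
      show (((d : stabilizer G inf) : G) * ((d' : stabilizer G inf) : G)) • (u ^ i • o) = _
      rw [mul_smul, e1, e2, mul_assoc])
    rw [← this, Nat.cast_mul, hk, hk']
  let κM : stabilizer (stabilizer G inf) o →* ZMod p :=
    { toFun := κ, map_one' := hκone, map_mul' := hκmul }
  have hκinj : Function.Injective κM.toHomUnits := by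
    intro d d' hdd
    have h1 : κ d = κ d' := congrArg (fun x : (ZMod p)ˣ => (x : ZMod p)) hdd
    obtain ⟨k, hk⟩ := ZMod.natCast_zmod_surjective (κ d)
    have e1 := hκ1 d k hk
    have e2 := hκ1 d' k (hk.trans h1)
    have h2 : ((d : stabilizer G inf) : G) = ((d' : stabilizer G inf) : G) := by
      apply FaithfulSMul.eq_of_smul_eq_smul (α := Ω)
      intro x
      by_cases hx : x = inf
      · rw [hx, hd1 d, hd1 d']
      · obtain ⟨i, -, rfl⟩ := hsurj x hx
        rw [e1 i, e2 i]
    exact Subtype.ext (Subtype.ext h2)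
  haveI : NeZero h := ⟨hh.ne'⟩
  have hrange : κM.toHomUnits.range = rootsOfUnity h (ZMod p) := by
    apply Subgroup.eq_of_le_of_card_ge
    · rintro _ ⟨d, rfl⟩
      rw [mem_rootsOfUnity, ← map_pow]
      have : d ^ h = 1 := by rw [← hT]; exact pow_card_eq_one'
      rw [this, map_one]
    · rw [← Nat.card_congr (MonoidHom.ofInjective hκinj).toEquiv, hT]
      exact card_rootsOfUnity (ZMod p) h
  have hAh : ((A : ℕ) : ZMod p) ^ h = 1 := by
    rw [← Nat.cast_pow, ← Nat.cast_one, ZMod.natCast_eq_natCast_iff', hA1,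
      Nat.mod_eq_of_lt hp.one_lt]
  let a : (ZMod p)ˣ := Units.mkOfMulEqOne (A : ZMod p) ((A : ZMod p) ^ (h - 1)) (by
    rw [← pow_succ', Nat.sub_add_cancel hh]
    exact hAh)
  have ha : a ∈ κM.toHomUnits.range := by
    rw [hrange, mem_rootsOfUnity']
    exact hAh
  obtain ⟨m', hm'⟩ := ha
  have hκm : ((A : ℕ) : ZMod p) = κ m' := by
    have := congrArg (fun x : (ZMod p)ˣ => (x : ZMod p)) hm'
    exact this.symm
  have horda : orderOf a = h := by
    rw [orderOf_eq_iff hh]
    refine ⟨?_, ?_⟩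
    · apply Units.ext
      rw [Units.val_pow_eq_pow_val]
      exact hAh
    · intro e he he0 hae
      have h1 : ((A : ℕ) : ZMod p) ^ e = 1 := by
        have := congrArg (fun x : (ZMod p)ˣ => (x : ZMod p)) hae
        simp only [Units.val_pow_eq_pow_val, Units.val_one] at this
        exact this
      rw [← Nat.cast_pow, ← Nat.cast_one, ZMod.natCast_eq_natCast_iff',
        Nat.mod_eq_of_lt hp.one_lt] at h1
      exact hA2 e he0 he h1
  have hordm : orderOf m' = h := by
    rw [← orderOf_injective κM.toHomUnits hκinj m', hm', horda]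
  have htop : Subgroup.zpowers m' = ⊤ := by
    apply Subgroup.eq_top_of_card_eq
    rw [Nat.card_zpowers, hordm, hT]
  refine ⟨((m' : stabilizer G inf) : G), hd1 m', fun k => hκ1 m' A hκm k, ?_, ?_⟩
  · have : m' ^ h = 1 := by rw [← hordm]; exact pow_orderOf_eq_one m'
    have h2 := congrArg (fun t : stabilizer (stabilizer G inf) o => ((t : stabilizer G inf) : G)) this
    simpa using h2
  · intro x hx1 hx2
    have hmem : (⟨⟨x, hx1⟩, hx2⟩ : stabilizer (stabilizer G inf) o) ∈ Subgroup.zpowers m' := by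
      rw [htop]
      exact Subgroup.mem_top _
    obtain ⟨n, hn⟩ := mem_powers_iff_mem_zpowers.mpr hmem
    refine ⟨n, ?_⟩
    have h2 := congrArg (fun t : stabilizer (stabilizer G inf) o => ((t : stabilizer G inf) : G)) hn
    simpa using h2.symm

end Cfsg.Agent.Lib.Helper1.PSLp
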