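import Mathlib
import Cfsg.Agent.Lib.Helper1.PSLpC

set_option autoImplicit false

namespace Cfsg.Agent.Lib.Helper1.PSLp

open MulAction

variable {G Ω : Type*} [Group G] [MulAction G Ω]

theorem layer1 [Finite G] [Finite Ω] [FaithfulSMul G Ω] [IsPretransitive G Ω]
    (p h A : ℕ) [Fact p.Prime] (hh : 0 < h) (hhp : h < p)
    (hA1 : A ^ h % p = 1) (hA2 : ∀ e, 0 < e → e < h → A ^ e % p ≠ 1)
    (hΩ : Nat.card Ω = p + 1) (hG : Nat.card G = (p + 1) * p * h) :
    ∃ (inf o : Ω) (u m g : G) (j : ℕ), IsZData p h A inf o u m g j := by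
  classical
  have hp := (Fact.out : p.Prime)
  haveI : Nonempty Ω := by
    rw [← Finite.card_pos_iff, hΩ]
    omega
  obtain ⟨inf⟩ := ‹Nonempty Ω›
  have hS : Nat.card (stabilizer G inf) = p * h := by
    have h1 := Subgroup.index_mul_card (stabilizer G inf)
    rw [index_stabilizer_of_transitive, hΩ, hG] at h1
    have : (p + 1) * Nat.card (stabilizer G inf) = (p + 1) * (p * h) := by
      rw [h1]
      ring
    exact Nat.eq_of_mul_eq_mul_left (by omega) this
  obtain ⟨u', hu'⟩ := exists_prime_orderOf_dvd_card' (G := stabilizer G inf) p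
    (by rw [hS]; exact dvd_mul_right p h)
  have hu : orderOf (u' : G) = p := by rw [← hu']; exact Subgroup.orderOf_coe u'
  have huS : (u' : G) ∈ stabilizer G inf := u'.2
  have hu_inf : (u' : G) • inf = inf := huS
  have hup : (u' : G) ^ p = 1 := by rw [← hu]; exact pow_orderOf_eq_one _
  obtain ⟨o, ho⟩ : ∃ o : Ω, o ≠ inf := by
    haveI : Nontrivial Ω := by
      rw [← Finite.one_lt_card_iff_nontrivial, hΩ]
      have := hp.one_lt
      omega
    exact exists_ne inf
  have hne := pts_ne (u' : G) inf o hu_inf ho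
  have hinj := pts_inj p hΩ (u' : G) hu inf o hu_inf ho
  have hsurj := pts_surj p hΩ (u' : G) hu inf o hu_inf ho
  obtain ⟨m, hm_inf, hm, hmh, hD⟩ :=
    exists_m p h A hh hhp hA1 hA2 hΩ inf o ho hS (u' : G) huS hu
  have hm_o : m • o = o := by
    have := hm 0
    simpa using this
  obtain ⟨g1, hg1⟩ := exists_smul_eq G o inf
  have hz : g1 • inf ≠ inf := by
    intro hz
    apply ho
    have : g1 • o = g1 • inf := by rw [hg1, hz]
    exact MulAction.injective g1 this
  obtain ⟨k, -, hk⟩ := hsurj _ hz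
  have hg_o : (((u' : G) ^ k)⁻¹ * g1) • o = inf := by
    rw [mul_smul, hg1]
    exact smul_inv_fix (smul_pow_fix hu_inf k)
  have hg_inf : (((u' : G) ^ k)⁻¹ * g1) • inf = o := by
    rw [mul_smul, hk, inv_smul_smul]
  have hginv_inf : (((u' : G) ^ k)⁻¹ * g1)⁻¹ • inf = o := by
    rw [inv_smul_eq_iff, hg_o]
  have hginv_o : (((u' : G) ^ k)⁻¹ * g1)⁻¹ • o = inf := by
    rw [inv_smul_eq_iff, hg_inf]
  obtain ⟨j, hj⟩ := hD ((((u' : G) ^ k)⁻¹ * g1) * m * (((u' : G) ^ k)⁻¹ * g1)⁻¹)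
    (by rw [mul_smul, mul_smul, hginv_inf, hm_o, hg_o])
    (by rw [mul_smul, mul_smul, hginv_o, hm_inf, hg_inf])
  have hgm : (((u' : G) ^ k)⁻¹ * g1) * m = m ^ j * (((u' : G) ^ k)⁻¹ * g1) := by
    rw [← hj]
    group
  have hcl1 : ∀ x : G, x • inf = inf →
      x ∈ Subgroup.closure ({(u' : G), m, ((u' : G) ^ k)⁻¹ * g1} : Set G) := by
    intro x hx
    have hxo : x • o ≠ inf := by
      intro hxo
      apply ho
      have : x • o = x • inf := by rw [hxo, hx]
      exact MulAction.injective x this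
    obtain ⟨i, -, hi⟩ := hsurj _ hxo
    obtain ⟨e, he⟩ := hD (((u' : G) ^ i)⁻¹ * x)
      (by rw [mul_smul, hx]; exact smul_inv_fix (smul_pow_fix hu_inf i))
      (by rw [mul_smul, hi, inv_smul_smul])
    have hx' : x = (u' : G) ^ i * m ^ e := by
      rw [← he]
      group
    rw [hx']
    apply Subgroup.mul_mem
    · exact Subgroup.pow_mem _ (Subgroup.subset_closure (by simp)) i
    · exact Subgroup.pow_mem _ (Subgroup.subset_closure (by simp)) e
  refine ⟨inf, o, (u' : G), m, ((u' : G) ^ k)⁻¹ * g1, j,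
    ⟨ho, hu_inf, hup, hinj, hne, hsurj, hm_inf, hm, hmh, hD, hg_inf, hg_o, hgm, ?_⟩⟩
  rw [eq_top_iff]
  intro x _
  by_cases hx : x • inf = inf
  · exact hcl1 x hx
  · obtain ⟨i, -, hi⟩ := hsurj _ hx
    have hy : ((((u' : G) ^ k)⁻¹ * g1) * ((u' : G) ^ i)⁻¹ * x) • inf = inf := by
      rw [mul_smul, mul_smul, hi, inv_smul_smul, hg_o]
    have h1 := hcl1 _ hy
    have hx' : x = (u' : G) ^ i * (((u' : G) ^ k)⁻¹ * g1)⁻¹ *
        ((((u' : G) ^ k)⁻¹ * g1) * ((u' : G) ^ i)⁻¹ * x) := by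
      group
    rw [hx']
    refine Subgroup.mul_mem _ ?_ h1
    apply Subgroup.mul_mem
    · exact Subgroup.pow_mem _ (Subgroup.subset_closure (by simp)) i
    · exact Subgroup.inv_mem _ (Subgroup.subset_closure (by simp))

end Cfsg.Agent.Lib.Helper1.PSLp
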