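import Mathlib
import Cfsg.Agent.Lib.Helper1.PSLpL1

set_option autoImplicit false

namespace Cfsg.Agent.Lib.Helper1.PSLp

open MulAction

variable {G Ω : Type*} [Group G] [MulAction G Ω]

def pt (p : ℕ) (inf o : Ω) (u : G) (k : ℕ) : Ω := if k = p then inf else u ^ k • o

def sylG (p h : ℕ) (u m g : G) (s : ℕ) : G :=
  if s < p then u ^ s else if s < p + h then m ^ (s - p) else g

def prodW (p h : ℕ) (u m g : G) : List ℕ → G
  | [] => 1
  | s :: w => sylG p h u m g s * prodW p h u m g w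

def Tgrp (p A : ℕ) (T : ℕ → ℕ) : Subgroup (Equiv.Perm (Fin (p + 1))) :=
  Subgroup.closure {π | (∀ c, (π c : ℕ) = Upow p 1 c) ∨ (∀ c, (π c : ℕ) = Mpow p A 1 c) ∨
    (∀ c, (π c : ℕ) = T c)}

theorem pt_p (p : ℕ) (inf o : Ω) (u : G) : pt p inf o u p = inf := by
  simp [pt]

theorem pt_zero (p : ℕ) (inf o : Ω) (u : G) (hp : 0 < p) : pt p inf o u 0 = o := by
  simp [pt, hp.ne]

theorem Upow_le (p e y : ℕ) (hp : 0 < p) : Upow p e y ≤ p := by
  unfold Upow
  split_ifs
  · exact le_refl p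
  · exact (Nat.mod_lt _ hp).le

theorem Mpow_le (p A e y : ℕ) (hp : 0 < p) : Mpow p A e y ≤ p := by
  unfold Mpow
  split_ifs
  · exact le_refl p
  · exact (Nat.mod_lt _ hp).le

theorem Tc_le (p A : ℕ) (dl : ℕ → ℕ) (sq : ℕ → Bool) (j c1 c2 y : ℕ) (hp : 0 < p) :
    Tc p A dl sq j c1 c2 y ≤ p := by
  unfold Tc
  split_ifs
  · exact Nat.zero_le p
  · exact le_refl p
  · exact (Nat.mod_lt _ hp).le
  · exact (Nat.mod_lt _ hp).le

section

variable {p h A : ℕ} {inf o : Ω} {u m g : G} {j : ℕ}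

theorem pt_inj (Z : IsZData p h A inf o u m g j) {k k' : ℕ} (hk : k ≤ p) (hk' : k' ≤ p)
    (hkk : pt p inf o u k = pt p inf o u k') : k = k' := by
  unfold pt at hkk
  by_cases h1 : k = p <;> by_cases h2 : k' = p
  · rw [h1, h2]
  · rw [if_pos h1, if_neg h2] at hkk
    exact absurd hkk.symm (Z.hu_ne k')
  · rw [if_neg h1, if_pos h2] at hkk
    exact absurd hkk (Z.hu_ne k)
  · rw [if_neg h1, if_neg h2] at hkk
    exact Z.hu_inj k k' (by omega) (by omega) hkk

theorem pt_surj (Z : IsZData p h A inf o u m g j) (x : Ω) : ∃ k ≤ p, x = pt p inf o u k := by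
  by_cases hx : x = inf
  · exact ⟨p, le_refl p, by rw [hx]; simp [pt]⟩
  · obtain ⟨k, hk, rfl⟩ := Z.hu_surj x hx
    exact ⟨k, hk.le, by simp [pt, hk.ne]⟩

theorem u_pt (Z : IsZData p h A inf o u m g j) (hp : 0 < p) (e : ℕ) {k : ℕ} (_hk : k ≤ p) :
    u ^ e • pt p inf o u k = pt p inf o u (Upow p e k) := by
  unfold pt Upow
  by_cases h1 : k = p
  · rw [if_pos h1, if_pos h1, if_pos rfl]
    exact smul_pow_fix Z.hu_inf e
  · rw [if_neg h1, if_neg h1, if_neg (Nat.mod_lt _ hp).ne, ← mul_smul, ← pow_add,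
      pow_eq_pow_mod _ Z.hup, Nat.add_comm e k]

theorem m_pow_smul (Z : IsZData p h A inf o u m g j) (e k : ℕ) :
    m ^ e • (u ^ k • o) = u ^ (A ^ e * k) • o := by
  induction e with
  | zero => simp
  | succ e ih =>
    rw [pow_succ', mul_smul, ih, Z.hm]
    congr 2
    ring

theorem m_pt (Z : IsZData p h A inf o u m g j) (hp : 0 < p) (e : ℕ) {k : ℕ} (_hk : k ≤ p) :
    m ^ e • pt p inf o u k = pt p inf o u (Mpow p A e k) := by
  unfold pt Mpow
  by_cases h1 : k = p
  · rw [if_pos h1, if_pos h1, if_pos rfl]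
    exact smul_pow_fix Z.hm_inf e
  · rw [if_neg h1, if_neg h1, if_neg (Nat.mod_lt _ hp).ne, m_pow_smul Z,
      pow_eq_pow_mod _ Z.hup]

theorem g_pow {g m : G} {j : ℕ} (hgm : g * m = m ^ j * g) (i : ℕ) :
    g * m ^ i = m ^ (j * i) * g := by
  have h1 : SemiconjBy g m (m ^ j) := hgm
  have h2 := h1.pow_right i
  rw [pow_mul]
  exact h2

theorem g_pt (Z : IsZData p h A inf o u m g j) (hp : 1 < p) (n0 : ℕ) (hn0p : n0 < p)
    (dl : ℕ → ℕ) (sq : ℕ → Bool)
    (hdl : ∀ k < p, 0 < k → k = (A ^ dl k * (if sq k then 1 else n0)) % p)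
    (g' : G) (j' : ℕ) (hg'inf : g' • inf = o) (hg'o : g' • o = inf)
    (hg'm : g' * m = m ^ j' * g')
    (c1 c2 : ℕ) (hc1 : c1 < p) (hc2 : c2 < p)
    (h1 : g' • pt p inf o u 1 = pt p inf o u c1) (h2 : g' • pt p inf o u n0 = pt p inf o u c2)
    {k : ℕ} (hk : k ≤ p) :
    g' • pt p inf o u k = pt p inf o u (Tc p A dl sq j' c1 c2 k) := by
  unfold Tc
  by_cases hkp : k = p
  · rw [if_pos hkp, hkp, pt_p, pt_zero _ _ _ _ (by omega)]
    exact hg'inf
  · rw [if_neg hkp]
    by_cases hk0 : k = 0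
    · rw [if_pos hk0, hk0, pt_p, pt_zero _ _ _ _ (by omega)]
      exact hg'o
    · rw [if_neg hk0]
      have hkl : k < p := by omega
      have hd := hdl k hkl (by omega)
      have hr : (if sq k then 1 else n0) < p := by split_ifs <;> omega
      have e1 : pt p inf o u k = m ^ dl k • pt p inf o u (if sq k then 1 else n0) := by
        rw [m_pt Z (by omega) (dl k) hr.le]
        unfold Mpow
        rw [if_neg hr.ne, ← hd]
      rw [e1, ← mul_smul, g_pow hg'm, mul_smul]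
      have e2 : g' • pt p inf o u (if sq k then 1 else n0)
          = pt p inf o u (if sq k then c1 else c2) := by
        split_ifs
        · exact h1
        · exact h2
      have hc : (if sq k then c1 else c2) < p := by split_ifs <;> assumption
      rw [e2, m_pt Z (by omega) _ hc.le]
      unfold Mpow
      rw [if_neg hc.ne]

theorem evalW_pt (Z : IsZData p h A inf o u m g j) (hp : 0 < p) (g' : G) (T : ℕ → ℕ)
    (hT : ∀ k ≤ p, g' • pt p inf o u k = pt p inf o u (T k) ∧ T k ≤ p) (w : List ℕ) :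
    ∀ k ≤ p, prodW p h u m g' w • pt p inf o u k = pt p inf o u (evalW p h A T w k) ∧
      evalW p h A T w k ≤ p := by
  induction w with
  | nil =>
    intro k hk
    exact ⟨by simp [prodW, evalW], hk⟩
  | cons s w ih =>
    intro k hk
    obtain ⟨e1, e2⟩ := ih k hk
    simp only [prodW, evalW]
    rw [mul_smul, e1]
    unfold sylG syl
    by_cases hs1 : s < p
    · rw [if_pos hs1, if_pos hs1]
      exact ⟨u_pt Z hp s e2, Upow_le _ _ _ hp⟩
    · rw [if_neg hs1, if_neg hs1]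
      by_cases hs2 : s < p + h
      · rw [if_pos hs2, if_pos hs2]
        exact ⟨m_pt Z hp _ e2, Mpow_le _ _ _ _ hp⟩
      · rw [if_neg hs2, if_neg hs2]
        exact hT _ e2

end

end Cfsg.Agent.Lib.Helper1.PSLp
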