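import Mathlib
import Cfsg.Agent.Lib.Helper1.PSLpL2

set_option autoImplicit false

namespace Cfsg.Agent.Lib.Helper1.PSLp

open MulAction

variable {G Ω : Type*} [Group G] [MulAction G Ω]

theorem normalize (p h A n0 : ℕ) [Fact p.Prime] (dl : ℕ → ℕ) (sq : ℕ → Bool)
    (hh : 0 < h) (hn0 : 0 < n0) (hn0p : n0 < p)
    (hdl : ∀ k < p, 0 < k → k = (A ^ dl k * (if sq k then 1 else n0)) % p)
    {inf o : Ω} {u m g : G} {j : ℕ} (Z : IsZData p h A inf o u m g j) :
    ∃ (g' : G) (j' : ℕ) (b : Bool) (c2 : ℕ), j' < h ∧ c2 < p ∧ g' • inf = o ∧ g' • o = inf ∧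
      g' * m = m ^ j' * g' ∧ Subgroup.closure {u, m, g'} = ⊤ ∧
      ∀ k ≤ p, g' • pt p inf o u k
        = pt p inf o u (Tc p A dl sq j' (if b then 1 else n0) c2 k) := by
  have hp := (Fact.out : p.Prime)
  have hp1 := hp.one_lt
  have hpt0 : pt p inf o u 0 = o := pt_zero _ _ _ _ hp.pos
  have hptp : pt p inf o u p = inf := pt_p _ _ _ _
  obtain ⟨c, hc, hgc⟩ := pt_surj Z (g • pt p inf o u 1)
  have hc_ne_p : c ≠ p := by
    intro hcp
    rw [hcp, hptp] at hgc
    have h1 : pt p inf o u 1 = pt p inf o u 0 :=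
      MulAction.injective g
        (by rw [hgc, hpt0, Z.hg_o] : g • pt p inf o u 1 = g • pt p inf o u 0)
    have := pt_inj Z (by omega) (by omega) h1
    omega
  have hc_ne_0 : c ≠ 0 := by
    intro hc0
    rw [hc0, hpt0] at hgc
    have h1 : pt p inf o u 1 = pt p inf o u p :=
      MulAction.injective g
        (by rw [hgc, hptp, Z.hg_inf] : g • pt p inf o u 1 = g • pt p inf o u p)
    have := pt_inj Z (by omega) (le_refl p) h1
    omega
  have hcl : c < p := by omega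
  have hcd := hdl c hcl (by omega)
  have hr : (if sq c then 1 else n0) < p := by split_ifs <;> omega
  have hmo : m • o = o := by
    have := Z.hm 0
    simpa using this
  have hg'inf : ((m ^ dl c)⁻¹ * g) • inf = o := by
    rw [mul_smul, Z.hg_inf]
    exact smul_inv_fix (smul_pow_fix hmo _)
  have hg'o : ((m ^ dl c)⁻¹ * g) • o = inf := by
    rw [mul_smul, Z.hg_o]
    exact smul_inv_fix (smul_pow_fix Z.hm_inf _)
  have hmj : m ^ j = m ^ (j % h) := pow_eq_pow_mod j Z.hmh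
  have hg'm : ((m ^ dl c)⁻¹ * g) * m = m ^ (j % h) * ((m ^ dl c)⁻¹ * g) := by
    rw [mul_assoc, Z.hgm, hmj, ← mul_assoc, ← mul_assoc]
    congr 1
    exact ((Commute.pow_pow_self m (dl c) (j % h)).inv_left).eq
  have hg'1 : ((m ^ dl c)⁻¹ * g) • pt p inf o u 1 = pt p inf o u (if sq c then 1 else n0) := by
    rw [mul_smul, hgc, inv_smul_eq_iff, m_pt Z hp.pos _ hr.le]
    unfold Mpow
    rw [if_neg hr.ne, ← hcd]
  obtain ⟨c2, hc2, hgc2⟩ := pt_surj Z (((m ^ dl c)⁻¹ * g) • pt p inf o u n0)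
  have hc2p : c2 ≠ p := by
    intro hcp
    rw [hcp, hptp] at hgc2
    have h1 : pt p inf o u n0 = pt p inf o u 0 :=
      MulAction.injective ((m ^ dl c)⁻¹ * g)
        (by rw [hgc2, hpt0, hg'o] :
          ((m ^ dl c)⁻¹ * g) • pt p inf o u n0 = ((m ^ dl c)⁻¹ * g) • pt p inf o u 0)
    have := pt_inj Z hn0p.le (by omega) h1
    omega
  have hc2l : c2 < p := by omega
  refine ⟨(m ^ dl c)⁻¹ * g, j % h, sq c, c2, Nat.mod_lt _ hh, hc2l, hg'inf, hg'o, hg'm, ?_, ?_⟩
  · rw [eq_top_iff, ← Z.hcl, Subgroup.closure_le]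
    intro x hx
    rcases hx with hx | hx | hx
    · rw [hx]
      exact Subgroup.subset_closure (by simp)
    · rw [hx]
      exact Subgroup.subset_closure (by simp)
    · have hx' : x = m ^ dl c * ((m ^ dl c)⁻¹ * g) := by
        rw [hx]
        group
      rw [hx']
      apply Subgroup.mul_mem
      · exact Subgroup.pow_mem _ (Subgroup.subset_closure (by simp)) _
      · exact Subgroup.subset_closure (by simp)
  · intro k hk
    exact g_pt Z hp1 n0 hn0p dl sq hdl _ (j % h) hg'inf hg'o hg'm _ c2 hr hc2l hg'1 hgc2 hk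

theorem good_of_chk (p h A n0 : ℕ) [Fact p.Prime] (dl : ℕ → ℕ) (sq : ℕ → Bool) (j0 : ℕ)
    (b0 : Bool) (c20 : ℕ) (useB : Bool) (cert : List ℕ)
    {inf o : Ω} {u m g : G} {j : ℕ} (Z : IsZData p h A inf o u m g j)
    (hh : 0 < h)
    (hB : useB = true → ∀ g' : G, g' • inf = o → g' • o = inf → g' * m = m * g' → False)
    (g' : G) (j' : ℕ) (b : Bool) (c2 : ℕ)
    (hg'inf : g' • inf = o) (hg'o : g' • o = inf) (hg'm : g' * m = m ^ j' * g')
    (hT : ∀ k ≤ p, g' • pt p inf o u k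
        = pt p inf o u (Tc p A dl sq j' (if b then 1 else n0) c2 k))
    (hchk : Chk p h A n0 dl sq j0 b0 c20 useB cert j' b c2) :
    j' = j0 ∧ b = b0 ∧ c2 = c20 := by
  have hp := (Fact.out : p.Prime)
  have hpt0 : pt p inf o u 0 = o := pt_zero _ _ _ _ hp.pos
  have hptp : pt p inf o u p = inf := pt_p _ _ _ _
  have hT' : ∀ k ≤ p, g' • pt p inf o u k
        = pt p inf o u (Tc p A dl sq j' (if b then 1 else n0) c2 k) ∧
        Tc p A dl sq j' (if b then 1 else n0) c2 k ≤ p :=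
    fun k hk => ⟨hT k hk, Tc_le _ _ _ _ _ _ _ _ hp.pos⟩
  rcases hchk with ⟨-, h1, h2, h3⟩ | ⟨-, hxy, hx, hy, hTxy⟩ | ⟨-, hy, hwp, hw0, hall⟩ |
    ⟨-, hub, hj1⟩
  · exact ⟨h1, h2, h3⟩
  · exfalso
    have e1 := hT _ hx
    have e2 := hT _ hy
    rw [hTxy, ← e2] at e1
    exact hxy (pt_inj Z hx hy (MulAction.injective g' e1))
  · exfalso
    have hW := evalW_pt (h := h) Z hp.pos g' _ hT' (cert.drop 2)
    have f1 : prodW p h u m g' (cert.drop 2) • inf = inf := by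
      have := (hW p (le_refl p)).1
      rw [hwp, hptp] at this
      exact this
    have f2 : prodW p h u m g' (cert.drop 2) • o = o := by
      have := (hW 0 (Nat.zero_le p)).1
      rw [hw0, hpt0] at this
      exact this
    obtain ⟨e, he⟩ := Z.hD _ f1 f2
    have he' : prodW p h u m g' (cert.drop 2) = m ^ (e % h) := by
      rw [he]
      exact pow_eq_pow_mod e Z.hmh
    have g1 := (hW 1 hp.one_lt.le).1
    rw [he', m_pt Z hp.pos _ hp.one_lt.le] at g1
    have g1' := pt_inj Z (Mpow_le _ _ _ _ hp.pos) (hW 1 hp.one_lt.le).2 g1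
    have g2 := (hW _ hy).1
    rw [he', m_pt Z hp.pos _ hy] at g2
    have g2' := pt_inj Z (Mpow_le _ _ _ _ hp.pos) (hW _ hy).2 g2
    rcases hall (e % h) (Nat.mod_lt _ hh) with h1 | h1
    · exact h1 g1'.symm
    · exact h1 g2'.symm
  · exfalso
    rw [hj1, pow_one] at hg'm
    exact hB hub g' hg'inf hg'o hg'm

theorem recog (p h A n0 : ℕ) [Fact p.Prime] (dl : ℕ → ℕ) (sq : ℕ → Bool) (j0 : ℕ) (b0 : Bool)
    (c20 : ℕ) (useB : Bool) (cert : ℕ → Bool → ℕ → List ℕ)
    (hh : 0 < h) (hn0 : 0 < n0) (hn0p : n0 < p)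
    (hdl : ∀ k < p, 0 < k → k = (A ^ dl k * (if sq k then 1 else n0)) % p)
    (hchk : ∀ j < h, ∀ c2 < p,
      Chk p h A n0 dl sq j0 b0 c20 useB (cert j true c2) j true c2 ∧
      Chk p h A n0 dl sq j0 b0 c20 useB (cert j false c2) j false c2)
    [FaithfulSMul G Ω]
    {inf o : Ω} {u m g : G} {j : ℕ} (Z : IsZData p h A inf o u m g j)
    (hB : useB = true → ∀ g' : G, g' • inf = o → g' • o = inf → g' * m = m * g' → False) :
    ∃ φ : G →* Equiv.Perm (Fin (p + 1)), Function.Injective φ ∧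
      φ.range = Tgrp p A (Tc p A dl sq j0 (if b0 then 1 else n0) c20) := by
  have hp := (Fact.out : p.Prime)
  obtain ⟨g', j', b, c2, hj', hc2, hg'inf, hg'o, hg'm, hcl, hT⟩ :=
    normalize p h A n0 dl sq hh hn0 hn0p hdl Z
  have hchk2 : Chk p h A n0 dl sq j0 b0 c20 useB (cert j' b c2) j' b c2 := by
    cases b
    · exact (hchk j' hj' c2 hc2).2
    · exact (hchk j' hj' c2 hc2).1
  obtain ⟨rfl, rfl, rfl⟩ := good_of_chk p h A n0 dl sq j0 b0 c20 useB _ Z hh hB g' j' b c2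
    hg'inf hg'o hg'm hT hchk2
  have hbij : Function.Bijective (fun c : Fin (p + 1) => pt p inf o u (c : ℕ)) := by
    constructor
    · intro a b hab
      exact Fin.ext (pt_inj Z (Nat.lt_succ_iff.mp a.2) (Nat.lt_succ_iff.mp b.2) hab)
    · intro x
      obtain ⟨k, hk, rfl⟩ := pt_surj Z x
      exact ⟨⟨k, Nat.lt_succ_of_le hk⟩, rfl⟩
  let e : Fin (p + 1) ≃ Ω := Equiv.ofBijective _ hbij
  let φ : G →* Equiv.Perm (Fin (p + 1)) :=
    (e.symm.permCongrHom.toMonoidHom).comp (MulAction.toPermHom G Ω)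
  have hφ : ∀ (x : G) (c : Fin (p + 1)), e (φ x c) = x • e c := by
    intro x c
    show e (e.symm (x • e c)) = x • e c
    rw [Equiv.apply_symm_apply]
  have hφinj : Function.Injective φ := by
    intro x y hxy
    apply FaithfulSMul.eq_of_smul_eq_smul (α := Ω)
    intro w
    obtain ⟨c, rfl⟩ := e.surjective w
    rw [← hφ, ← hφ, hxy]
  have key : ∀ (x : G) (S : ℕ → ℕ),
      (∀ k ≤ p, x • pt p inf o u k = pt p inf o u (S k) ∧ S k ≤ p) →
      ∀ c : Fin (p + 1), ((φ x c : Fin (p + 1)) : ℕ) = S c := by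
    intro x S hS c
    obtain ⟨h1, h2⟩ := hS c (Nat.lt_succ_iff.mp c.2)
    have h3 : e (φ x c) = e ⟨S c, Nat.lt_succ_of_le h2⟩ := by
      rw [hφ]
      exact h1
    have h4 := e.injective h3
    rw [h4]
  have keyu := key u (Upow p 1) (fun k hk => ⟨by
    have := u_pt Z hp.pos 1 hk
    rwa [pow_one] at this, Upow_le _ _ _ hp.pos⟩)
  have keym := key m (Mpow p A 1) (fun k hk => ⟨by
    have := m_pt Z hp.pos 1 hk
    rwa [pow_one] at this, Mpow_le _ _ _ _ hp.pos⟩)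
  have keyg := key g' _ (fun k hk => ⟨hT k hk, Tc_le _ _ _ _ _ _ _ _ hp.pos⟩)
  refine ⟨φ, hφinj, ?_⟩
  have huniq : ∀ (π π' : Equiv.Perm (Fin (p + 1))) (S : ℕ → ℕ),
      (∀ c, (π c : ℕ) = S c) → (∀ c, (π' c : ℕ) = S c) → π = π' := by
    intro π π' S h1 h2
    ext c
    rw [h1, h2]
  rw [MonoidHom.range_eq_map, ← hcl, MonoidHom.map_closure]
  unfold Tgrp
  congr 1
  ext π
  constructor
  · rintro ⟨x, hx, rfl⟩
    rcases hx with hx | hx | hx
    · rw [hx]
      exact Or.inl keyu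
    · rw [hx]
      exact Or.inr (Or.inl keym)
    · rw [hx]
      exact Or.inr (Or.inr keyg)
  · rintro (h1 | h1 | h1)
    · exact ⟨u, by simp, huniq _ _ _ keyu h1⟩
    · exact ⟨m, by simp, huniq _ _ _ keym h1⟩
    · exact ⟨g', by simp, huniq _ _ _ keyg h1⟩

end Cfsg.Agent.Lib.Helper1.PSLp
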