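import Mathlib
import Cfsg.Agent.Lib.Helper1.PSLpL3

set_option autoImplicit false

namespace Cfsg.Agent.Lib.Helper1.PSLp

open MulAction

theorem sylow_setup (p h : ℕ) [Fact p.Prime] {G : Type*} [Group G] [Finite G] [IsSimpleGroup G]
    (hG : Nat.card G = (p + 1) * p * h) (hh : 0 < h)
    (hdiv : ∀ d, d ∣ (p + 1) * h → d % p = 1 → d = 1 ∨ d = p + 1) :
    Nat.card (Sylow p G) = p + 1 ∧ FaithfulSMul G (Sylow p G) := by
  have hp := (Fact.out : p.Prime)
  obtain ⟨P⟩ : Nonempty (Sylow p G) := inferInstance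
  have hpd : p ∣ Nat.card G := by
    rw [hG]
    exact Dvd.intro ((p + 1) * h) (by ring)
  have hPd : p ∣ Nat.card P := P.dvd_card_of_dvd_card hpd
  have hidx : (P : Subgroup G).index ∣ (p + 1) * h := by
    obtain ⟨t, ht⟩ := hPd
    have h1 := Subgroup.index_mul_card (P : Subgroup G)
    rw [ht, hG] at h1
    have h2 : p * ((P : Subgroup G).index * t) = p * ((p + 1) * h) := by
      rw [← mul_assoc, mul_comm p, mul_assoc, h1]
      ring
    have h3 := Nat.eq_of_mul_eq_mul_left hp.pos h2
    exact Dvd.intro _ h3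
  have hn_dvd : Nat.card (Sylow p G) ∣ (p + 1) * h := (Sylow.card_dvd_index P).trans hidx
  have hn_mod : Nat.card (Sylow p G) % p = 1 := by
    have h4 : Nat.card (Sylow p G) % p = 1 % p := card_sylow_modEq_one p G
    rwa [Nat.mod_eq_of_lt hp.one_lt] at h4
  have hn : Nat.card (Sylow p G) = p + 1 := by
    rcases hdiv _ hn_dvd hn_mod with h1 | h1
    · exfalso
      haveI : Subsingleton (Sylow p G) := (Nat.card_eq_one_iff_unique.mp h1).1
      haveI := Sylow.normal_of_subsingleton P
      rcases (inferInstance : (P : Subgroup G).Normal).eq_bot_or_eq_top with h2 | h2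
      · have h3 : Nat.card (P : Subgroup G) = 1 := by
          rw [h2]
          exact Subgroup.card_bot
        rw [h3] at hPd
        have := Nat.le_of_dvd one_pos hPd
        have := hp.one_lt
        omega
      · have h3 : Nat.card (P : Subgroup G) = Nat.card G := by
          rw [h2]
          exact Subgroup.card_top
        obtain ⟨k, hk⟩ := IsPGroup.iff_card.mp P.2
        rw [h3, hG] at hk
        have h4 : (p + 1) ∣ p ^ k := by
          rw [← hk]
          exact Dvd.intro (p * h) (by ring)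
        have h5 : Nat.Coprime (p + 1) (p ^ k) := by
          apply Nat.Coprime.pow_right
          rw [Nat.coprime_iff_gcd_eq_one]
          simp
        have := Nat.Coprime.eq_one_of_dvd h5 h4
        have := hp.pos
        omega
    · exact h1
  refine ⟨hn, ?_⟩
  have hker : (MulAction.toPermHom G (Sylow p G)).ker = ⊥ := by
    rcases (inferInstance :
      (MulAction.toPermHom G (Sylow p G)).ker.Normal).eq_bot_or_eq_top with h1 | h1
    · exact h1
    · exfalso
      haveI : Nontrivial (Sylow p G) := by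
        rw [← Finite.one_lt_card_iff_nontrivial, hn]
        have := hp.pos
        omega
      obtain ⟨Q, hQ⟩ := exists_ne P
      obtain ⟨g, hg⟩ := MulAction.exists_smul_eq G P Q
      have h2 : g ∈ (MulAction.toPermHom G (Sylow p G)).ker := by
        rw [h1]
        trivial
      rw [MonoidHom.mem_ker] at h2
      have h3 := congrArg (fun π : Equiv.Perm (Sylow p G) => π P) h2
      have h4 : g • P = P := h3
      exact hQ (by rw [← hg, h4])
  constructor
  intro g₁ g₂ hgg
  have h1 : MulAction.toPermHom G (Sylow p G) g₁ = MulAction.toPermHom G (Sylow p G) g₂ :=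
    Equiv.ext hgg
  exact (MonoidHom.ker_eq_bot_iff _).mp hker h1

theorem uniq (p h A n0 : ℕ) [Fact p.Prime] (dl : ℕ → ℕ) (sq : ℕ → Bool) (j0 : ℕ) (b0 : Bool)
    (c20 : ℕ) (useB : Bool) (cert : ℕ → Bool → ℕ → List ℕ)
    (hh : 0 < h) (hhp : h < p) (hn0 : 0 < n0) (hn0p : n0 < p)
    (hA1 : A ^ h % p = 1) (hA2 : ∀ e, 0 < e → e < h → A ^ e % p ≠ 1)
    (hdl : ∀ k < p, 0 < k → k = (A ^ dl k * (if sq k then 1 else n0)) % p)
    (hchk : ∀ j < h, ∀ c2 < p,
      Chk p h A n0 dl sq j0 b0 c20 useB (cert j true c2) j true c2 ∧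
      Chk p h A n0 dl sq j0 b0 c20 useB (cert j false c2) j false c2)
    (hdiv : ∀ d, d ∣ (p + 1) * h → d % p = 1 → d = 1 ∨ d = p + 1)
    {G : Type*} [Group G] [Finite G] [IsSimpleGroup G] (hG : Nat.card G = (p + 1) * p * h)
    (hB : useB = true → ∀ (inf o : Sylow p G) (u m g : G) (j : ℕ),
      IsZData p h A inf o u m g j →
      ∀ g' : G, g' • inf = o → g' • o = inf → g' * m = m * g' → False) :
    Nonempty (G ≃* Tgrp p A (Tc p A dl sq j0 (if b0 then 1 else n0) c20)) := by
  obtain ⟨hn, hfaith⟩ := sylow_setup p h hG hh hdiv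
  haveI := hfaith
  obtain ⟨inf, o, u, m, g, j, Z⟩ :=
    layer1 (G := G) (Ω := Sylow p G) p h A hh hhp hA1 hA2 hn hG
  obtain ⟨φ, hφ, hr⟩ := recog p h A n0 dl sq j0 b0 c20 useB cert hh hn0 hn0p hdl hchk Z
    (fun hb => hB hb inf o u m g j Z)
  exact ⟨(MonoidHom.ofInjective hφ).trans (MulEquiv.subgroupCongr hr)⟩

end Cfsg.Agent.Lib.Helper1.PSLp
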