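import Mathlib
import Cfsg.Agent.Lib.Helper1.Quat
import Cfsg.Agent.Lib.Helper1.UniqP
import Cfsg.Agent.Lib.Helper1.Inv

namespace Cfsg.Agent.Lib.Helper1.SL2Syl

open Matrix

variable {F : Type*} [Field F]

theorem two_ne_zero_of_odd [Fintype F] (hF : Odd (Fintype.card F)) : (2 : F) ≠ 0 := by
  apply Ring.two_ne_zero
  intro h
  have := FiniteField.even_card_of_char_two h
  rw [Nat.odd_iff] at hF
  omega

theorem sl2_invol (h2 : (2 : F) ≠ 0) (A : SpecialLinearGroup (Fin 2) F) (hA : A * A = 1) :
    (A : Matrix (Fin 2) (Fin 2) F) = 1 ∨ (A : Matrix (Fin 2) (Fin 2) F) = -1 := by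
  have hMM : (A : Matrix (Fin 2) (Fin 2) F) * (A : Matrix (Fin 2) (Fin 2) F) = 1 := by
    have := congrArg Subtype.val hA
    simpa using this
  have hdet : (A : Matrix (Fin 2) (Fin 2) F) 0 0 * (A : Matrix (Fin 2) (Fin 2) F) 1 1 -
      (A : Matrix (Fin 2) (Fin 2) F) 0 1 * (A : Matrix (Fin 2) (Fin 2) F) 1 0 = 1 := by
    rw [← Matrix.det_fin_two]
    exact A.2
  have h00 := congrFun (congrFun hMM 0) 0
  have h01 := congrFun (congrFun hMM 0) 1
  have h10 := congrFun (congrFun hMM 1) 0
  have h11 := congrFun (congrFun hMM 1) 1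
  simp only [Matrix.mul_apply, Fin.sum_univ_two, Matrix.one_apply_eq, Matrix.one_apply_ne,
    ne_eq, zero_ne_one, one_ne_zero, not_false_eq_true, Fin.isValue] at h00 h01 h10 h11
  set a := (A : Matrix (Fin 2) (Fin 2) F) 0 0 with ha
  set b := (A : Matrix (Fin 2) (Fin 2) F) 0 1 with hb
  set c := (A : Matrix (Fin 2) (Fin 2) F) 1 0 with hc
  set d := (A : Matrix (Fin 2) (Fin 2) F) 1 1 with hd
  by_cases hs : a + d = 0
  · exfalso
    apply h2
    have hd' : d = -a := by linear_combination hs
    rw [hd'] at hdet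
    linear_combination (-1 : F) * h00 - hdet
  · have hb0 : b = 0 := by
      have : b * (a + d) = 0 := by linear_combination h01
      rcases mul_eq_zero.1 this with h | h
      · exact h
      · exact absurd h hs
    have hc0 : c = 0 := by
      have : c * (a + d) = 0 := by linear_combination h10
      rcases mul_eq_zero.1 this with h | h
      · exact h
      · exact absurd h hs
    rw [hb0, hc0] at hdet h00
    simp only [mul_zero, sub_zero, add_zero] at hdet h00
    have ha0 : a ≠ 0 := by
      intro h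
      rw [h] at hdet
      simp at hdet
    have had : a = d := by
      have : a * (a - d) = 0 := by linear_combination h00 - hdet
      rcases mul_eq_zero.1 this with h | h
      · exact absurd h ha0
      · linear_combination h
    have ha1 : (a - 1) * (a + 1) = 0 := by linear_combination h00
    rcases mul_eq_zero.1 ha1 with h | h
    · left
      have ha1' : a = 1 := by linear_combination h
      ext i j
      fin_cases i <;> fin_cases j
      · show a = 1
        exact ha1'
      · show b = 0
        exact hb0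
      · show c = 0
        exact hc0
      · show d = 1
        rw [← had]
        exact ha1'
    · right
      have ha1' : a = -1 := by linear_combination h
      ext i j
      fin_cases i <;> fin_cases j
      · show a = -1
        exact ha1'
      · show b = -0
        rw [hb0]
        simp
      · show c = -0
        rw [hc0]
        simp
      · show d = -1
        rw [← had]
        exact ha1'

theorem exists_sq_add_sq [Fintype F] (hF : Odd (Fintype.card F)) :
    ∃ a b : F, a ^ 2 + b ^ 2 = -1 := by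
  obtain ⟨a, b, hab⟩ := FiniteField.exists_root_sum_quadratic (R := F)
    (f := Polynomial.X ^ 2) (g := Polynomial.X ^ 2 + Polynomial.C 1)
    (Polynomial.degree_X_pow 2) (Polynomial.degree_X_pow_add_C (by norm_num) 1)
    (Nat.odd_iff.1 hF)
  refine ⟨a, b, ?_⟩
  simp only [Polynomial.eval_pow, Polynomial.eval_X, Polynomial.eval_add, Polynomial.eval_C] at hab
  linear_combination hab

def qX : SpecialLinearGroup (Fin 2) F :=
  ⟨!![0, 1; -1, 0], by simp [Matrix.det_fin_two]⟩

def qY (a b : F) (h : a ^ 2 + b ^ 2 = -1) : SpecialLinearGroup (Fin 2) F :=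
  ⟨!![a, b; b, -a], by
    rw [Matrix.det_fin_two]
    simp only [Matrix.of_apply, Matrix.cons_val', Matrix.cons_val_zero, Matrix.cons_val_one,
      Matrix.cons_val_fin_one]
    linear_combination (-1 : F) * h⟩

theorem qX_sq : (qX : SpecialLinearGroup (Fin 2) F).val *
    (qX : SpecialLinearGroup (Fin 2) F).val = !![-1, 0; 0, -1] := by
  simp [qX, Matrix.mul_fin_two]

theorem qX_pow_four : (qX : SpecialLinearGroup (Fin 2) F) ^ (2 * 2) = 1 := by
  have h : (qX : SpecialLinearGroup (Fin 2) F) ^ (2 * 2) = qX * qX * (qX * qX) := by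
    rw [show (2 * 2 : ℕ) = 2 + 2 from rfl, pow_add, pow_two]
  rw [h]
  have key : (qX : SpecialLinearGroup (Fin 2) F).val * (qX : SpecialLinearGroup (Fin 2) F).val *
      ((qX : SpecialLinearGroup (Fin 2) F).val * (qX : SpecialLinearGroup (Fin 2) F).val) = 1 := by
    rw [qX_sq, Matrix.mul_fin_two, Matrix.one_fin_two]
    simp
  apply Subtype.ext
  exact key

theorem qY_sq (a b : F) (h : a ^ 2 + b ^ 2 = -1) : qY a b h * qY a b h = qX ^ 2 := by
  rw [pow_two]
  have key : (qY a b h).val * (qY a b h).val =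
      (qX : SpecialLinearGroup (Fin 2) F).val * (qX : SpecialLinearGroup (Fin 2) F).val := by
    rw [qX_sq]
    simp only [qY, Matrix.mul_fin_two]
    ext i j
    fin_cases i <;> fin_cases j <;> simp <;> first | linear_combination h | ring
  apply Subtype.ext
  exact key

theorem qY_conj (a b : F) (h : a ^ 2 + b ^ 2 = -1) :
    qY a b h * qX * (qY a b h)⁻¹ = (qX : SpecialLinearGroup (Fin 2) F)⁻¹ := by
  have hinv : (qX : SpecialLinearGroup (Fin 2) F)⁻¹ = qX ^ 3 := by
    apply inv_eq_of_mul_eq_one_right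
    rw [← pow_succ']
    exact qX_pow_four
  rw [hinv, mul_inv_eq_iff_eq_mul]
  have h3 : (qX : SpecialLinearGroup (Fin 2) F) ^ 3 = qX * qX * qX := by
    rw [pow_succ, pow_two]
  rw [h3]
  have key : (qY a b h).val * (qX : SpecialLinearGroup (Fin 2) F).val =
      (qX : SpecialLinearGroup (Fin 2) F).val * (qX : SpecialLinearGroup (Fin 2) F).val *
        (qX : SpecialLinearGroup (Fin 2) F).val * (qY a b h).val := by
    rw [qX_sq]
    simp [qX, qY, Matrix.mul_fin_two]
  apply Subtype.ext
  exact key

theorem qXY_ne (h2 : (2 : F) ≠ 0) (a b : F) (h : a ^ 2 + b ^ 2 = -1) :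
    qX * qY a b h ≠ qY a b h * qX := by
  intro heq
  have hm : (qX : SpecialLinearGroup (Fin 2) F).val * (qY a b h).val =
      (qY a b h).val * (qX : SpecialLinearGroup (Fin 2) F).val := congrArg Subtype.val heq
  simp only [qX, qY, Matrix.mul_fin_two] at hm
  have h00 := congrFun (congrFun hm 0) 0
  have h01 := congrFun (congrFun hm 0) 1
  simp at h00 h01
  have hb : b = 0 := by
    have : 2 * b = 0 := by linear_combination h00
    rcases mul_eq_zero.1 this with h' | h'
    · exact absurd h' h2
    · exact h'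
  have ha : a = 0 := by
    have : 2 * a = 0 := by linear_combination (-1 : F) * h01
    rcases mul_eq_zero.1 this with h' | h'
    · exact absurd h' h2
    · exact h'
  rw [ha, hb] at h
  have : (1 : F) = 0 := by linear_combination h
  exact one_ne_zero this

theorem sylow_two_quat [Fintype F] (hF : Odd (Fintype.card F))
    (P : Sylow 2 (SpecialLinearGroup (Fin 2) F)) :
    ∃ k : ℕ, 1 ≤ k ∧
      Nonempty ((P : Subgroup (SpecialLinearGroup (Fin 2) F)) ≃* QuaternionGroup (2 ^ k)) := by
  haveI : Fact (Nat.Prime 2) := ⟨Nat.prime_two⟩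
  have h2 := two_ne_zero_of_odd hF
  have hval : ∀ (H : Subgroup (P : Subgroup (SpecialLinearGroup (Fin 2) F))), Nat.card H = 2 →
      ∀ x ∈ H, (((x : (P : Subgroup (SpecialLinearGroup (Fin 2) F))) :
        SpecialLinearGroup (Fin 2) F) : Matrix (Fin 2) (Fin 2) F) = 1 ∨
        (((x : (P : Subgroup (SpecialLinearGroup (Fin 2) F))) :
        SpecialLinearGroup (Fin 2) F) : Matrix (Fin 2) (Fin 2) F) = -1 := by
    intro H hH x hx
    apply sl2_invol h2
    have h1 : x ^ 2 = 1 := by
      have h3 := Subgroup.orderOf_dvd_natCard H hx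
      rw [hH] at h3
      exact orderOf_dvd_iff_pow_eq_one.1 h3
    have h' := congrArg Subtype.val h1
    rw [pow_two] at h'
    exact h'
  have hex : ∀ (H : Subgroup (P : Subgroup (SpecialLinearGroup (Fin 2) F))), Nat.card H = 2 →
      ∃ x ∈ H, (((x : (P : Subgroup (SpecialLinearGroup (Fin 2) F))) :
        SpecialLinearGroup (Fin 2) F) : Matrix (Fin 2) (Fin 2) F) = -1 := by
    intro H hH
    have hne : H ≠ ⊥ := by
      intro h
      rw [h, Subgroup.card_bot] at hH
      omega
    obtain ⟨x, hx1⟩ := (Subgroup.ne_bot_iff_exists_ne_one).1 hne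
    rcases hval H hH x.1 x.2 with h | h
    · exfalso
      apply hx1
      apply Subtype.ext
      apply Subtype.ext
      apply Subtype.ext
      exact h
    · exact ⟨x.1, x.2, h⟩
  have hsub : ∀ (H K : Subgroup (P : Subgroup (SpecialLinearGroup (Fin 2) F))),
      Nat.card H = 2 → Nat.card K = 2 → H ≤ K := by
    intro H K hH hK x hx
    rcases hval H hH x hx with h | h
    · have : x = 1 := Subtype.ext (Subtype.ext h)
      rw [this]
      exact one_mem K
    · obtain ⟨y, hy, hy1⟩ := hex K hK
      have : x = y := Subtype.ext (Subtype.ext (h.trans hy1.symm))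
      rw [this]
      exact hy
  have huniq : ∀ H K : Subgroup (P : Subgroup (SpecialLinearGroup (Fin 2) F)),
      Nat.card H = 2 → Nat.card K = 2 → H = K :=
    fun H K hH hK => le_antisymm (hsub H K hH hK) (hsub K H hK hH)
  have hnc : ∃ x y : (P : Subgroup (SpecialLinearGroup (Fin 2) F)), x * y ≠ y * x := by
    obtain ⟨a, b, hab⟩ := exists_sq_add_sq hF
    have hQ : IsPGroup 2
        (Cfsg.Agent.Lib.Helper1.Quat.quatHom 2 (qX : SpecialLinearGroup (Fin 2) F) (qY a b hab)
          qX_pow_four (qY_sq a b hab) (qY_conj a b hab)).range := by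
      haveI : NeZero (2 : ℕ) := ⟨by norm_num⟩
      have hq8 : IsPGroup 2 (QuaternionGroup 2) := by
        apply IsPGroup.of_card (n := 3)
        rw [Nat.card_eq_fintype_card, QuaternionGroup.card]
        norm_num
      rintro ⟨y, q, rfl⟩
      obtain ⟨k, hk⟩ := hq8 q
      refine ⟨k, ?_⟩
      apply Subtype.ext
      simp only [Subgroup.coe_pow, Subgroup.coe_one]
      rw [← map_pow, hk, map_one]
    obtain ⟨P', hP'⟩ := IsPGroup.exists_le_sylow hQ
    obtain ⟨g, hg⟩ := MulAction.exists_smul_eq (SpecialLinearGroup (Fin 2) F) P P'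
    have hXm : (qX : SpecialLinearGroup (Fin 2) F) ∈ P' := by
      apply hP'
      refine ⟨QuaternionGroup.a 1, ?_⟩
      rw [Cfsg.Agent.Lib.Helper1.Quat.quatHom_a]
      have := Cfsg.Agent.Lib.Helper1.Quat.qp_natCast (2 * 2)
        (qX : SpecialLinearGroup (Fin 2) F) qX_pow_four 1
      rw [Nat.cast_one, pow_one] at this
      exact this
    have hYm : qY a b hab ∈ P' := by
      apply hP'
      refine ⟨QuaternionGroup.xa 0, ?_⟩
      rw [Cfsg.Agent.Lib.Helper1.Quat.quatHom_xa]
      have := Cfsg.Agent.Lib.Helper1.Quat.qp_natCast (2 * 2)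
        (qX : SpecialLinearGroup (Fin 2) F) qX_pow_four 0
      rw [Nat.cast_zero, pow_zero] at this
      rw [this, mul_one]
    rw [← hg] at hXm hYm
    rw [Cfsg.Agent.Lib.Helper1.mem_sylow_smul_iff] at hXm hYm
    refine ⟨⟨_, hXm⟩, ⟨_, hYm⟩, ?_⟩
    intro heq
    have h' := congrArg Subtype.val heq
    simp only [Subgroup.coe_mul] at h'
    apply qXY_ne h2 a b hab
    calc qX * qY a b hab = g * ((g⁻¹ * qX * g) * (g⁻¹ * qY a b hab * g)) * g⁻¹ := by group
      _ = g * ((g⁻¹ * qY a b hab * g) * (g⁻¹ * qX * g)) * g⁻¹ := by rw [h']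
      _ = qY a b hab * qX := by group
  obtain ⟨x, y, hxy⟩ := hnc
  rcases Cfsg.Agent.Lib.Helper1.UniqP.cyclic_or_quat (p := 2) P.2 huniq with hc | ⟨-, n, ⟨e⟩⟩
  · exfalso
    exact hxy ((IsCyclic.isMulCommutative
      (α := (P : Subgroup (SpecialLinearGroup (Fin 2) F)))).is_comm.comm x y)
  · rcases Nat.eq_zero_or_pos n with rfl | hn
    · exfalso
      haveI : IsCyclic (QuaternionGroup (2 ^ 0)) := QuaternionGroup.quaternionGroup_one_isCyclic
      apply hxy
      apply e.injective
      rw [map_mul, map_mul]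
      exact (IsCyclic.isMulCommutative (α := QuaternionGroup (2 ^ 0))).is_comm.comm _ _
    · exact ⟨n, hn, ⟨e⟩⟩

end Cfsg.Agent.Lib.Helper1.SL2Syl
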