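import Mathlib
import Cfsg.Agent.Lib.Helper1.GL2U

set_option autoImplicit false

namespace Cfsg.Agent.Lib.Helper1.SL2U

open Matrix
open scoped Pointwise
open Cfsg.Agent.Lib.Helper1.GL2U

variable {F : Type*} [Field F]

def uts (a : F) : SpecialLinearGroup (Fin 2) F :=
  ⟨utMat a, by rw [utMat, Matrix.det_fin_two_of]; ring⟩

def lts (a : F) : SpecialLinearGroup (Fin 2) F :=
  ⟨ltMat a, by rw [ltMat, Matrix.det_fin_two_of]; ring⟩

theorem uts_val (a : F) : (uts a : SpecialLinearGroup (Fin 2) F).1 = utMat a := rfl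

theorem lts_val (a : F) : (lts a : SpecialLinearGroup (Fin 2) F).1 = ltMat a := rfl

theorem uts_mul (a b : F) : uts a * uts b = uts (a + b) := Subtype.ext (utMat_mul a b)

theorem uts_zero : uts (0 : F) = 1 := Subtype.ext utMat_zero

theorem uts_inj {a b : F} (h : uts a = uts b) : a = b := utMat_inj (congrArg Subtype.val h)

def utsHom : Multiplicative F →* SpecialLinearGroup (Fin 2) F where
  toFun a := uts (Multiplicative.toAdd a)
  map_one' := uts_zero
  map_mul' a b := (uts_mul _ _).symm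

def US : Subgroup (SpecialLinearGroup (Fin 2) F) := (utsHom (F := F)).range

theorem mem_US {g : SpecialLinearGroup (Fin 2) F} :
    g ∈ (US : Subgroup (SpecialLinearGroup (Fin 2) F)) ↔ ∃ a, g = uts a := by
  constructor
  · rintro ⟨a, rfl⟩
    exact ⟨Multiplicative.toAdd a, rfl⟩
  · rintro ⟨a, rfl⟩
    exact ⟨Multiplicative.ofAdd a, rfl⟩

theorem card_US [Fintype F] :
    Nat.card (US : Subgroup (SpecialLinearGroup (Fin 2) F)) = Fintype.card F := by
  have hinj : Function.Injective (utsHom (F := F)) := fun a b h =>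
    Multiplicative.toAdd.injective (uts_inj h)
  rw [US, ← Nat.card_congr (MonoidHom.ofInjective hinj).toEquiv, ← Nat.card_eq_fintype_card]
  exact Nat.card_congr Multiplicative.toAdd

theorem card_SL2 [Fintype F] :
    Nat.card (SpecialLinearGroup (Fin 2) F) =
      Fintype.card F * (Fintype.card F ^ 2 - 1) := by
  have h := GLn.card_SL_formula (F := F) 2 (by norm_num)
  rw [Fin.prod_univ_two] at h
  have hq : 2 ≤ Fintype.card F := Fintype.one_lt_card
  obtain ⟨m, hm⟩ : ∃ m, Fintype.card F = m + 1 := ⟨Fintype.card F - 1, by omega⟩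
  rw [hm] at h ⊢
  have h1 : (m + 1) ^ 2 - (m + 1) ^ ((0 : Fin 2) : ℕ) = m * (m + 2) := by
    rw [Nat.sub_eq_iff_eq_add (Nat.pow_le_pow_right (by omega) (by simp))]
    simp
    ring
  have h2 : (m + 1) ^ 2 - (m + 1) ^ ((1 : Fin 2) : ℕ) = m * (m + 1) := by
    rw [Nat.sub_eq_iff_eq_add (Nat.pow_le_pow_right (by omega) (by simp))]
    simp
    ring
  have h3 : (m + 1) ^ 2 - 1 = m * (m + 2) := by
    rw [Nat.sub_eq_iff_eq_add (Nat.one_le_pow _ _ (by omega))]
    ring
  rw [h1, h2, Nat.add_sub_cancel] at h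
  rw [h3]
  have hm0 : 0 < m := by omega
  apply Nat.eq_of_mul_eq_mul_left hm0
  rw [h]
  ring

theorem exists_sylow_US [Fintype F] (p : ℕ) [Fact p.Prime] [CharP F p] :
    ∃ P : Sylow p (SpecialLinearGroup (Fin 2) F),
      (P : Subgroup (SpecialLinearGroup (Fin 2) F)) = US := by
  have hp : p.Prime := Fact.out
  obtain ⟨f, -, hq⟩ := FiniteField.card F p
  have hP1 : IsPGroup p (US : Subgroup (SpecialLinearGroup (Fin 2) F)) :=
    IsPGroup.of_card (n := (f : ℕ)) (by rw [card_US, hq])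
  have h1 := Subgroup.card_mul_index (US : Subgroup (SpecialLinearGroup (Fin 2) F))
  rw [card_US, card_SL2] at h1
  have hq0 : 0 < Fintype.card F := Fintype.card_pos
  have h2 : (US : Subgroup (SpecialLinearGroup (Fin 2) F)).index = Fintype.card F ^ 2 - 1 :=
    Nat.eq_of_mul_eq_mul_left hq0 h1
  have hP2 : ¬ p ∣ (US : Subgroup (SpecialLinearGroup (Fin 2) F)).index := by
    rw [h2, hq]
    intro hdvd
    have h3 : p ∣ (p ^ (f : ℕ)) ^ 2 := dvd_pow (dvd_pow_self p f.ne_zero) (by norm_num)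
    have h4 : 1 ≤ (p ^ (f : ℕ)) ^ 2 := Nat.one_le_pow _ _ (pow_pos hp.pos _)
    have h5 := Nat.dvd_sub h3 hdvd
    have h6 : (p ^ (f : ℕ)) ^ 2 - ((p ^ (f : ℕ)) ^ 2 - 1) = 1 := by omega
    rw [h6] at h5
    exact hp.one_lt.ne' (Nat.dvd_one.mp h5)
  exact ⟨hP1.toSylow hP2, IsPGroup.toSylow_coe hP1 hP2⟩

theorem sl_conj_mem {k : SpecialLinearGroup (Fin 2) F} (hk : k.1 1 0 = 0)
    {u : SpecialLinearGroup (Fin 2) F}
    (hu : u ∈ (US : Subgroup (SpecialLinearGroup (Fin 2) F))) :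
    k * u * k⁻¹ ∈ (US : Subgroup (SpecialLinearGroup (Fin 2) F)) := by
  obtain ⟨a, rfl⟩ := mem_US.1 hu
  have hdet := k.2
  rw [Matrix.det_fin_two, hk, mul_zero, sub_zero] at hdet
  have h11 : k.1 1 1 ≠ 0 := by
    intro h0
    rw [h0, mul_zero] at hdet
    exact zero_ne_one hdet
  have h1 := mat_norm k.1 hk h11 a
  refine mem_US.2 ⟨k.1 0 0 * a / k.1 1 1, ?_⟩
  rw [mul_inv_eq_iff_eq_mul]
  exact Subtype.ext h1

theorem sl_normalizer {k : SpecialLinearGroup (Fin 2) F} (hk : k.1 1 0 = 0) :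
    k ∈ Subgroup.normalizer ((US : Subgroup (SpecialLinearGroup (Fin 2) F)) :
      Set (SpecialLinearGroup (Fin 2) F)) := by
  rw [Subgroup.mem_normalizer_iff]
  intro u
  constructor
  · exact sl_conj_mem hk
  · intro hu
    have hk' : (k⁻¹).1 1 0 = 0 := by
      rw [Matrix.SpecialLinearGroup.coe_inv, Matrix.adjugate_fin_two]
      simp [hk]
    have h1 := sl_conj_mem hk' hu
    have h2 : k⁻¹ * (k * u * k⁻¹) * k⁻¹⁻¹ = u := by group
    rwa [h2] at h1

theorem transvection_mem (H : Subgroup (SpecialLinearGroup (Fin 2) F))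
    (hu : ∀ a : F, uts a ∈ H) (hl : ∀ a : F, lts a ∈ H) (i j : Fin 2) (h : i ≠ j) (c : F) :
    SpecialLinearGroup.transvection h c ∈ H := by
  fin_cases i <;> fin_cases j
  · exact absurd rfl h
  · have e : SpecialLinearGroup.transvection h c = uts c := by
      apply Subtype.ext
      rw [SpecialLinearGroup.transvection_coe, uts_val, utMat]
      ext i j
      fin_cases i <;> fin_cases j <;> simp
    rw [e]
    exact hu c
  · have e : SpecialLinearGroup.transvection h c = lts c := by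
      apply Subtype.ext
      rw [SpecialLinearGroup.transvection_coe, lts_val, ltMat]
      ext i j
      fin_cases i <;> fin_cases j <;> simp
    rw [e]
    exact hl c
  · exact absurd rfl h

theorem gen_top (k : SpecialLinearGroup (Fin 2) F) (hk : k.1 1 0 ≠ 0)
    (H : Subgroup (SpecialLinearGroup (Fin 2) F))
    (h1 : (US : Subgroup (SpecialLinearGroup (Fin 2) F)) ≤ H)
    (h2 : ∀ u ∈ (US : Subgroup (SpecialLinearGroup (Fin 2) F)), k * u * k⁻¹ ∈ H) : H = ⊤ := by
  have hu : ∀ a : F, uts a ∈ H := fun a => h1 (mem_US.2 ⟨a, rfl⟩)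
  have hl : ∀ t : F, lts t ∈ H := by
    intro t
    have e := mat_lower k.1 k.2 hk t
    have e' : uts (-(k.1 0 0) / k.1 1 0) * k * uts (-t / (k.1 1 0) ^ 2) =
        lts t * (uts (-(k.1 0 0) / k.1 1 0) * k) := Subtype.ext e
    have e2 : lts t = uts (-(k.1 0 0) / k.1 1 0) * (k * uts (-t / (k.1 1 0) ^ 2) * k⁻¹) *
        (uts (-(k.1 0 0) / k.1 1 0))⁻¹ := by
      rw [eq_mul_inv_iff_mul_eq, ← mul_assoc, ← mul_assoc, eq_mul_inv_iff_mul_eq, mul_assoc (lts t),
        ← e']
    rw [e2]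
    exact H.mul_mem (H.mul_mem (hu _) (h2 _ (mem_US.2 ⟨_, rfl⟩))) (H.inv_mem (hu _))
  rw [eq_top_iff]
  intro A _
  exact SLn.transvection_induction (fun A => A ∈ H) (transvection_mem H hu hl)
    (fun A B hA hB => H.mul_mem hA hB) A

theorem sylow_join [Fintype F] (p : ℕ) [Fact p.Prime] [CharP F p]
    (P Q : Sylow p (SpecialLinearGroup (Fin 2) F)) (h : P ≠ Q) :
    (P : Subgroup (SpecialLinearGroup (Fin 2) F)) ⊔
      (Q : Subgroup (SpecialLinearGroup (Fin 2) F)) = ⊤ := by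
  obtain ⟨U, hU⟩ := exists_sylow_US (F := F) p
  obtain ⟨g, hg⟩ := MulAction.exists_smul_eq (SpecialLinearGroup (Fin 2) F) U P
  obtain ⟨k, hk⟩ := MulAction.exists_smul_eq (SpecialLinearGroup (Fin 2) F) U Q
  have hm : (g⁻¹ * k).1 1 0 ≠ 0 := by
    intro h0
    have h2 := sl_normalizer h0
    rw [← hU] at h2
    have h2' : (g⁻¹ * k) • U = U := Sylow.smul_eq_iff_mem_normalizer.2 h2
    apply h
    rw [← hg, ← hk]
    have h3 : k = g * (g⁻¹ * k) := by group
    rw [h3, mul_smul, h2']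
  have hH := gen_top (g⁻¹ * k) hm
    (((P : Subgroup (SpecialLinearGroup (Fin 2) F)) ⊔
      (Q : Subgroup (SpecialLinearGroup (Fin 2) F))).comap (MulAut.conj g).toMonoidHom) ?_ ?_
  · rw [eq_top_iff]
    intro x _
    have hx : g⁻¹ * x * g ∈ (((P : Subgroup (SpecialLinearGroup (Fin 2) F)) ⊔
      (Q : Subgroup (SpecialLinearGroup (Fin 2) F))).comap (MulAut.conj g).toMonoidHom) := by
      rw [hH]
      exact Subgroup.mem_top _
    rw [Subgroup.mem_comap] at hx
    have e : (MulAut.conj g).toMonoidHom (g⁻¹ * x * g) = x := by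
      simp [MulAut.conj_apply, mul_assoc]
    rwa [e] at hx
  · intro u hu
    rw [Subgroup.mem_comap]
    apply Subgroup.mem_sup_left
    change (MulAut.conj g) u ∈ P
    rw [← hg, mem_smul_sylow, MulAut.conj_apply]
    have e : g⁻¹ * (g * u * g⁻¹) * g = u := by group
    rw [e]
    change u ∈ (U : Subgroup (SpecialLinearGroup (Fin 2) F))
    rw [hU]
    exact hu
  · intro u hu
    rw [Subgroup.mem_comap]
    apply Subgroup.mem_sup_right
    change (MulAut.conj g) (g⁻¹ * k * u * (g⁻¹ * k)⁻¹) ∈ Q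
    rw [← hk, mem_smul_sylow, MulAut.conj_apply]
    have e : k⁻¹ * (g * (g⁻¹ * k * u * (g⁻¹ * k)⁻¹) * g⁻¹) * k = u := by group
    rw [e]
    change u ∈ (U : Subgroup (SpecialLinearGroup (Fin 2) F))
    rw [hU]
    exact hu

end Cfsg.Agent.Lib.Helper1.SL2U
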